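import Mathlib
import Cfsg.Agent.Lib.Core.SLn
import Cfsg.Agent.Lib.Core.Fitting
import Cfsg.Agent.Lib.Core.PRes
import Cfsg.Agent.Lib.Small.Order24
import Cfsg.Agent.Lib.FT.Final

set_option autoImplicit false

namespace Cfsg.Lib.RuSyl

open Subgroup

theorem nonempty_mulAut_equiv {V : Type*} [Group V] [Finite V] (h2 : ∀ v : V, v * v = 1) {n : ℕ}
    (hn : Nat.card V = 2 ^ n) : Nonempty (MulAut V ≃* GL (Fin n) (ZMod 2)) := by
  have hc : ∀ a b : V, a * b = b * a := fun a b => by
    have e : ∀ v : V, v⁻¹ = v := fun v => inv_eq_of_mul_eq_one_right (h2 v)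
    rw [← e (a * b), mul_inv_rev, e, e]
  letI : CommGroup V := { ‹Group V› with mul_comm := hc }
  letI : Module (ZMod 2) (Additive V) := AddCommGroup.zmodModule (fun x => by
    rw [two_nsmul]; exact h2 x.toMul)
  have hr : Module.finrank (ZMod 2) (Additive V) = n := by
    have := Module.natCard_eq_pow_finrank (K := ZMod 2) (V := Additive V)
    rw [Nat.card_zmod, show Nat.card (Additive V) = Nat.card V from rfl, hn] at this
    exact (Nat.pow_right_injective le_rfl this).symm
  let b := Module.finBasisOfFinrankEq (ZMod 2) (Additive V) hr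
  let e1 : MulAut V ≃* (Additive V ≃ₗ[ZMod 2] Additive V) :=
    { toFun := fun σ => { (MulEquiv.toAdditive σ) with
        map_smul' := fun c x => ZMod.map_smul (MulEquiv.toAdditive σ) c x }
      invFun := fun τ => MulEquiv.toAdditive.symm τ.toAddEquiv
      left_inv := fun σ => rfl
      right_inv := fun τ => rfl
      map_mul' := fun σ τ => rfl }
  exact ⟨e1.trans ((LinearMap.GeneralLinearGroup.generalLinearEquiv (ZMod 2) (Additive V)).symm.trans
    (Matrix.GeneralLinearGroup.toLin' b).symm)⟩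

theorem card_gl3 : Nat.card (GL (Fin 3) (ZMod 2)) = 168 := by
  rw [Matrix.card_GL_field]; simp [Fin.prod_univ_succ]

theorem card_gl8 : Nat.card (GL (Fin 8) (ZMod 2)) = 5348063769211699200 := by
  rw [Matrix.card_GL_field]; simp [Fin.prod_univ_succ]

theorem simple_gl3 : IsSimpleGroup (GL (Fin 3) (ZMod 2)) := by
  have h := (sl_isQuasisimple (ι := Fin 3) (F := ZMod 2) (by simp)).2
  have hc : center (Matrix.SpecialLinearGroup (Fin 3) (ZMod 2)) = ⊥ := by
    rw [eq_bot_iff]
    intro A hA
    obtain ⟨r, hr, e⟩ := Matrix.SpecialLinearGroup.mem_center_iff.1 hA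
    have : r = 1 := by
      revert hr; generalize r = r; revert r; decide
    rw [mem_bot]
    apply Subtype.ext
    rw [← e, this, map_one]; rfl
  have e1 : Matrix.SpecialLinearGroup (Fin 3) (ZMod 2) ⧸ center _ ≃* Matrix.SpecialLinearGroup (Fin 3) (ZMod 2) :=
    (QuotientGroup.quotientMulEquivOfEq hc).trans QuotientGroup.quotientBot
  have e2 : Matrix.SpecialLinearGroup (Fin 3) (ZMod 2) ≃* GL (Fin 3) (ZMod 2) :=
    MulEquiv.ofBijective Matrix.SpecialLinearGroup.toGL ⟨Matrix.SpecialLinearGroup.toGL_injective, fun A =>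
      ⟨⟨A, by
        have : ∀ r : ZMod 2, r ≠ 0 → r = 1 := by decide
        exact this _ A.det_ne_zero⟩, Units.ext rfl⟩⟩
  exact (e1.trans e2).symm.isSimpleGroup

section P
variable {V : Type*} [CommGroup V] [Finite V]

theorem exists_fixed (h2 : ∀ v : V, v * v = 1) {T : Subgroup (MulAut V)} (hT : IsPGroup 2 T) {U : Subgroup V}
    (hU : ∀ t ∈ T, ∀ u ∈ U, t u ∈ U) (h1 : U ≠ ⊥) : ∃ u ∈ U, u ≠ 1 ∧ ∀ t ∈ T, t u = u := by
  let S : SubMulAction T V := { carrier := U, smul_mem' := fun t u hu => hU t t.2 u hu }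
  have hc : 2 ∣ Nat.card S := by
    obtain ⟨u, hu⟩ := ne_bot_iff_exists_ne_one.1 h1
    have : orderOf u = 2 := orderOf_eq_prime (by rw [pow_two]; exact Subtype.ext (h2 u)) hu
    exact this ▸ orderOf_dvd_natCard u
  obtain ⟨b, hb, hb1⟩ := hT.exists_fixed_point_of_prime_dvd_card_of_fixed_point S hc
    (a := ⟨1, U.one_mem⟩) (fun t => Subtype.ext (map_one (t : MulAut V)))
  exact ⟨b, b.2, fun e => hb1 (Subtype.ext e.symm), fun t ht => congrArg Subtype.val (hb ⟨t, ht⟩)⟩

/-- `T` has a unique nontrivial fixed point -/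
def Uniq (T : Subgroup (MulAut V)) : Prop :=
  ∀ v w : V, v ≠ 1 → w ≠ 1 → (∀ t ∈ T, t v = v) → (∀ t ∈ T, t w = w) → v = w

theorem eq_bot_of_fixed (h2 : ∀ v : V, v * v = 1) {T B : Subgroup (MulAut V)} (hT : IsPGroup 2 T) (hu : Uniq T)
    (hB : Odd (Nat.card B)) (hn : T ≤ normalizer (B : Set (MulAut V))) {v : V} (v1 : v ≠ 1)
    (hv : ∀ b ∈ B, b v = v) : B = ⊥ := by
  classical
  have := Fintype.ofFinite B
  let C : Subgroup V :=
    { carrier := {v | ∀ b ∈ B, b v = v}
      one_mem' := fun b _ => map_one b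
      mul_mem' := fun {x y} hx hy b hb => by rw [map_mul, hx b hb, hy b hb]
      inv_mem' := fun {x} hx b hb => by rw [map_inv, hx b hb] }
  have hc : ∀ t ∈ T, ∀ b ∈ B, t⁻¹ * b * t ∈ B := fun t ht b hb => by
    have := (mem_normalizer_iff.1 (hn (T.inv_mem ht)) b).1 hb
    rwa [inv_inv] at this
  obtain ⟨v0, hv0, v01, hv0T⟩ := exists_fixed h2 hT (U := C) (fun t ht u hu b hb => by
    have := hu _ (hc t ht b hb)
    rw [MulAut.mul_apply, MulAut.mul_apply, MulAut.inv_apply, MulEquiv.symm_apply_eq] at this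
    exact this) (fun e => v1 (mem_bot.1 (e ▸ hv)))
  let π : V →* V := MonoidHom.mk' (fun x => ∏ b : B, (b : MulAut V) x) fun x y => by
    simp only [map_mul, Finset.prod_mul_distrib]
  have hπ : ∀ x, π x = ∏ b : B, (b : MulAut V) x := fun _ => rfl
  have hk : π.ker = ⊥ := by
    by_contra hk
    obtain ⟨v2, hv2, v21, hv2T⟩ := exists_fixed h2 hT (U := π.ker) (fun t ht u hu => by
      rw [MonoidHom.mem_ker, hπ] at hu ⊢
      rw [← map_one t, ← hu, map_prod]
      refine Fintype.prod_bijective (fun b : B => (⟨t⁻¹ * b * t, hc t ht b b.2⟩ : B)) ?_ _ _ fun b => ?_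
      · exact Finite.injective_iff_bijective.1 fun a b e =>
          Subtype.ext (mul_left_cancel (mul_right_cancel (congrArg Subtype.val e)))
      · simp) hk
    rw [hu v2 v0 v21 v01 hv2T hv0T, MonoidHom.mem_ker, hπ, Finset.prod_congr rfl fun (b : B) _ => hv0 b b.2,
      Finset.prod_const, Finset.card_univ, ← Nat.card_eq_fintype_card] at hv2
    obtain ⟨k, hk⟩ := hB
    rw [hk, pow_succ, pow_mul, pow_two, h2, one_pow, one_mul] at hv2
    exact v01 hv2
  rw [eq_bot_iff]
  intro b hb
  refine mem_bot.2 (MulEquiv.ext fun x => (MonoidHom.ker_eq_bot_iff π).1 hk ?_)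
  rw [hπ, hπ]
  exact Fintype.prod_bijective (fun c : B => c * ⟨b, hb⟩) (Group.mulRight_bijective _) _ _ fun c => rfl

theorem eq_bot_of_centralizes (h2 : ∀ v : V, v * v = 1) [Nontrivial V] {T B : Subgroup (MulAut V)}
    (hT : IsPGroup 2 T) (hu : Uniq T) (hB : Odd (Nat.card B)) (hn : T ≤ centralizer (B : Set (MulAut V))) :
    B = ⊥ := by
  obtain ⟨v, -, v1, hv⟩ := exists_fixed h2 hT (U := ⊤) (fun _ _ _ _ => mem_top _) top_ne_bot
  refine eq_bot_of_fixed h2 hT hu hB (hn.trans (centralizer_le_normalizer _)) v1 fun b hb =>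
    hu _ _ (fun e => v1 (b.injective (e.trans (map_one b).symm))) v1 (fun t ht => ?_) hv
  rw [← MulAut.mul_apply, ← hn ht b hb, MulAut.mul_apply, hv t ht]

theorem pow_mod_seven {r a b : ℕ} (hr : r = 3 ∨ r = 5 ∨ r = 17) (ha : a ≤ 5) (hb : b ≤ a)
    (h : r ^ a ≡ r ^ b [MOD 7]) : a = b := by
  unfold Nat.ModEq at h
  rcases hr with rfl | rfl | rfl <;> interval_cases a <;> interval_cases b <;> first | rfl | (norm_num at h)

theorem map_ker_eq_bot (h2 : ∀ v : V, v * v = 1) (h8 : Nat.card V = 2 ^ 8) {H S : Type*} [Group H] [Finite H]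
    [Group S] [IsSimpleGroup S] (φ : H →* MulAut V) (ψ : H →* S) (hψ : Function.Surjective ψ)
    (h7 : 7 ∣ Nat.card S) {T : Subgroup H} (hT : IsPGroup 2 T) (hu : Uniq (T.map φ))
    (hodd : Odd (Nat.card (ψ.ker.map φ))) : ψ.ker.map φ = ⊥ := by
  by_contra hK
  have : Finite S := Finite.of_surjective ψ hψ
  have : Nontrivial V := Finite.one_lt_card_iff_nontrivial.1 (by rw [h8]; norm_num)
  set K := ψ.ker.map φ with hKdef
  have hKn : ∀ x : H, φ x ∈ normalizer (K : Set (MulAut V)) := fun x =>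
    le_normalizer_map φ ⟨x, by rw [normalizer_eq_top]; trivial, rfl⟩
  have : Nontrivial K := (nontrivial_iff_ne_bot K).2 hK
  obtain ⟨r, hr, hr1⟩ := exists_pCore_ne_bot_of_isSolvable (G := K) (N := ⊤) inferInstance top_ne_bot
    (by have := FT.odd_order_solvable hodd; infer_instance)
  have := Fact.mk hr
  rw [top_inf_eq] at hr1
  set R := (pCore r K).map K.subtype with hR
  have hRK : R ≤ K := map_subtype_le _
  have hRp : IsPGroup r R := (isPGroup_pCore (p := r) (G := K)).map _
  have hR1 : R ≠ ⊥ := fun e => hr1 ((map_eq_bot_iff_of_injective _ K.subtype_injective).1 e)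
  have hRn : ∀ x : H, φ x ∈ normalizer (R : Set (MulAut V)) := fun x => normalizer_le_normalizer_pCoreOf K (hKn x)
  have hRo : Odd (Nat.card R) := hodd.of_dvd_nat (card_dvd_of_le hRK)
  have hTp : IsPGroup 2 (T.map φ) := hT.map φ
  have h255 : r ∣ 255 := by
    have e1 := hRp.card_modEq_card_fixedPoints V
    have e2 : Nat.card (MulAction.fixedPoints R V) = 1 := by
      rw [Nat.card_eq_one_iff_exists]
      refine ⟨⟨1, fun b => map_one (b : MulAut V)⟩, fun v => Subtype.ext ?_⟩
      by_contra v1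
      exact hR1 (eq_bot_of_fixed h2 hTp hu hRo (by rintro _ ⟨x, -, rfl⟩; exact hRn x) v1 fun b hb => v.2 ⟨b, hb⟩)
    rw [h8, e2] at e1
    exact (Nat.modEq_iff_dvd' (by norm_num)).1 e1.symm
  have hr3 : r = 3 ∨ r = 5 ∨ r = 17 := by
    rw [show 255 = 3 * 5 * 17 by rfl] at h255
    rcases (Nat.Prime.dvd_mul hr).1 h255 with e | e
    · rcases (Nat.Prime.dvd_mul hr).1 e with e | e
      · exact Or.inl ((Nat.prime_dvd_prime_iff_eq hr (by norm_num)).1 e)
      · exact Or.inr (Or.inl ((Nat.prime_dvd_prime_iff_eq hr (by norm_num)).1 e))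
    · exact Or.inr (Or.inr ((Nat.prime_dvd_prime_iff_eq hr (by norm_num)).1 e))
  obtain ⟨a, ha⟩ := IsPGroup.iff_card.1 hRp
  have ha5 : a ≤ 5 := by
    obtain ⟨e⟩ := nonempty_mulAut_equiv h2 h8
    have e1 := card_subgroup_dvd_card R
    rw [Nat.card_congr e.toEquiv, card_gl8, ha] at e1
    by_contra hc
    have e2 := (pow_dvd_pow r (by omega : 6 ≤ a)).trans e1
    rcases hr3 with rfl | rfl | rfl <;> norm_num at e2
  have : Fact (Nat.Prime 7) := ⟨by norm_num⟩
  let P : Sylow 7 H := default
  have hP : (P : Subgroup H).map φ ≤ centralizer (R : Set (MulAut V)) := by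
    have e1 := sm_card_modEq_card_inf_centralizer (P.2.map φ) (T := R) (by rintro _ ⟨x, -, rfl⟩; exact hRn x)
    obtain ⟨b, hb⟩ := IsPGroup.iff_card.1 (hRp.to_le
      (inf_le_left : R ⊓ centralizer (((P : Subgroup H).map φ : Subgroup _) : Set (MulAut V)) ≤ R))
    have e2 := card_le_of_le
      (inf_le_left : R ⊓ centralizer (((P : Subgroup H).map φ : Subgroup _) : Set (MulAut V)) ≤ R)
    rw [ha, hb] at e1 e2
    have e3 : b ≤ a := (Nat.pow_le_pow_iff_right hr.one_lt).1 e2
    have e4 : a = b := pow_mod_seven hr3 ha5 e3 e1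
    have e5 := eq_of_le_of_card_ge
      (inf_le_left : R ⊓ centralizer (((P : Subgroup H).map φ : Subgroup _) : Set (MulAut V)) ≤ R)
      (by rw [ha, hb, e4])
    exact le_centralizer_iff.1 (e5.ge.trans inf_le_right)
  let X : Subgroup H := (centralizer (R : Set (MulAut V))).comap φ
  have hXn : X.Normal := ⟨fun x hx g => by
    rw [mem_comap, map_mul, map_mul, map_inv]
    exact (mem_normalizer_iff.1 (normalizer_le_normalizer_centralizer R (hRn g)) _).1 hx⟩
  have hX : X.map ψ = ⊤ := by
    refine (hXn.map ψ hψ).eq_bot_or_eq_top.resolve_left fun e => ?_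
    have e1 : (P : Subgroup H) ≤ ψ.ker := by
      rw [Subgroup.map_eq_bot_iff] at e
      exact (map_le_iff_le_comap.1 hP).trans e
    have e2 := index_dvd_of_le e1
    rw [index_ker, MonoidHom.range_eq_top.2 hψ, card_top] at e2
    exact P.not_dvd_index (h7.trans e2)
  have hX2 : X.index ∣ Nat.card K := by
    have e1 : X ⊔ ψ.ker = ⊤ := by rw [← comap_map_eq, hX, comap_top]
    rw [← relIndex_top_right, ← e1, relIndex_sup_left, hKdef, ← relIndex_ker]
    exact relIndex_dvd_of_le_left _ fun x hx => by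
      rw [mem_comap, MonoidHom.mem_ker.1 hx]; exact one_mem _
  refine hR1 (eq_bot_of_centralizes h2 hTp hu hRo ?_)
  rintro _ ⟨t, ht, rfl⟩
  obtain ⟨k, hk⟩ := hT ⟨t, ht⟩
  exact mem_of_pow_eq_one_of_relIndex_coprime (p := 2) (K := X) (H := ⊤) (by rw [normalizer_eq_top])
    (by rw [relIndex_top_right]; exact (hodd.of_dvd_nat hX2).coprime_two_right) (mem_top t)
    (congrArg Subtype.val hk)

end P

/-- a subgroup of `GL₃(2)` of order divisible by `8` -/
theorem eq_top_or_normal {S : Type*} [Group S] [IsSimpleGroup S] (hS : Nat.card S = 168) {A D : Subgroup S}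
    (hDA : D ≤ A) (hD : Nat.card D = 8) (h2 : ∀ B : Subgroup A, B.index ≠ 2) :
    A = ⊤ ∨ A ≤ normalizer (D : Set S) := by
  have : Finite S := Nat.finite_of_card_ne_zero (by omega)
  have e1 := relIndex_mul_index hDA
  have e2 := card_mul_index D
  rw [hS, hD] at e2
  have e3 : D.index = 21 := by omega
  rw [e3] at e1
  have e4 : A.index ∣ 21 := Dvd.intro_left _ e1
  have e5 : A.index ≤ 21 := Nat.le_of_dvd (by omega) e4
  have key : ∀ {H : Type _} [Group H] [Finite H] (B : Subgroup H), B.index = 3 → B.normalCore.index ∣ 6 := by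
    intro H _ _ B hB
    rw [normalCore_eq_ker, index_ker]
    have := card_subgroup_dvd_card (MulAction.toPermHom H (H ⧸ B)).range
    rwa [Nat.card_perm, ← index, hB] at this
  have e6 : A.index = 1 ∨ A.index = 3 ∨ A.index = 7 ∨ A.index = 21 := by
    generalize A.index = n at e4 e5
    interval_cases n <;> omega
  rcases e6 with e | e | e | e
  · exact Or.inl (index_eq_one.1 e)
  · have e7 := key A e
    rcases (normalCore_normal A).eq_bot_or_eq_top with e8 | e8
    · rw [e8, index_bot, hS] at e7; omega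
    · have := A.normalCore_le
      rw [e8, top_le_iff] at this
      exact Or.inl this
  · right
    have e7 : (D.subgroupOf A).index = 3 := by rw [e] at e1; rw [← relIndex]; omega
    have e8 := key _ e7
    have e9 := index_dvd_of_le (D.subgroupOf A).normalCore_le
    rw [e7] at e9
    have e10 : (D.subgroupOf A).normalCore.index = 3 ∨ (D.subgroupOf A).normalCore.index = 6 := by
      have := Nat.le_of_dvd (by omega) e8
      generalize (D.subgroupOf A).normalCore.index = n at e8 e9 this
      interval_cases n <;> omega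
    rcases e10 with e10 | e10
    · have e11 : (D.subgroupOf A).normalCore = D.subgroupOf A := by
        have := relIndex_mul_index (D.subgroupOf A).normalCore_le
        rw [e10, e7] at this
        exact le_antisymm (normalCore_le _) (relIndex_eq_one.1 (by omega))
      exact (normal_subgroupOf_iff_le_normalizer hDA).1 (e11 ▸ normalCore_normal _)
    · have : Fact (Nat.Prime 3) := ⟨by norm_num⟩
      obtain ⟨B, hB⟩ := Sylow.exists_subgroup_card_pow_prime (G := A ⧸ (D.subgroupOf A).normalCore) 3 (n := 1)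
        (by rw [← index, e10]; norm_num)
      have e12 := card_mul_index B
      rw [hB, ← index, e10] at e12
      refine absurd ?_ (h2 (B.comap (QuotientGroup.mk' _)))
      rw [index_comap_of_surjective _ (QuotientGroup.mk'_surjective _)]; omega
  · right
    rw [e] at e1
    exact (relIndex_eq_one.1 (by omega)).trans le_normalizer

end Cfsg.Lib.RuSyl
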