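import Mathlib
import Cfsg.Agent.Lib.PGroup.Frattini
import Cfsg.Agent.Lib.PGroup.DihedralQuaternion

set_option autoImplicit false

namespace Cfsg.Lib.RuSyl

open Subgroup
open scoped commutatorElement

section gen
variable {G : Type*} [Group G] [Finite G]

theorem exists_index_two {U Y : Subgroup G} (hU : IsPGroup 2 U) (hsq : ∀ u ∈ U, u * u ∈ Y) {x : G}
    (hx : x ∈ U) (hxY : x ∉ Y) : ∃ M : Subgroup G, M ≤ U ∧ M.relIndex U = 2 ∧ U ⊓ Y ≤ M ∧ x ∉ M := by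
  have h1 : ∀ u : U, u ^ 2 ∈ Y.subgroupOf U := fun u => by
    rw [mem_subgroupOf, pow_two]; exact hsq u u.2
  have h2 : commutator U ≤ Y.subgroupOf U := by
    rw [commutator_def, commutator_le]
    intro a _ b _
    have := mul_mem (mul_mem (h1 a) (h1 (a⁻¹ * b))) (inv_mem (h1 b))
    rwa [show a ^ 2 * (a⁻¹ * b) ^ 2 * (b ^ 2)⁻¹ = ⁅a, b⁆ by rw [commutatorElement_def]; simp only [pow_two]; group] at this
  obtain ⟨M, hM, hYM, hxM⟩ := pg_exists_coatom_not_mem (p := 2) h2 h1 (x := ⟨x, hx⟩) hxY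
  refine ⟨M.map U.subtype, map_subtype_le M, ?_, ?_, ?_⟩
  · rw [relIndex, subgroupOf, comap_map_eq_self_of_injective U.subtype_injective]
    exact pg_index_of_isCoatom hU hM
  · intro y hy
    exact ⟨⟨y, hy.1⟩, hYM hy.2, rfl⟩
  · rintro ⟨y, hy, e⟩
    exact hxM (by rwa [show y = ⟨x, hx⟩ from Subtype.ext e] at hy)

/-- the squares of a subgroup of index at most `8` generate `Z` -/
theorem le_of_sq {W Z U Y : Subgroup G} (hW : IsPGroup 2 W)
    (hd : ∀ U : Subgroup G, U ≤ W → U.relIndex W ≤ 16 → Z ≤ U) (hU : U ≤ W) (h8 : U.relIndex W ≤ 8)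
    (hsq : ∀ u ∈ U, u * u ∈ Y) : Z ≤ Y := by
  intro x hx
  by_contra hxY
  obtain ⟨M, hMU, h2, -, hxM⟩ := exists_index_two (hW.to_le hU) hsq (hd U hU (by omega) hx) hxY
  refine hxM (hd M (hMU.trans hU) ?_ hx)
  rw [← relIndex_mul_relIndex M U W hMU hU, h2]; omega

theorem mem_or_of_relIndex_two {A B : Subgroup G} (h : A.relIndex B = 2) {a b : G} (ha : a ∈ B) (haA : a ∉ A)
    (hb : b ∈ B) : b ∈ A ∨ a⁻¹ * b ∈ A := by
  have := mul_mem_iff_of_index_two (H := A.subgroupOf B) h (a := ⟨a⁻¹, B.inv_mem ha⟩) (b := ⟨b, hb⟩)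
  simp only [mem_subgroupOf, coe_mul, inv_mem_iff] at this
  tauto

theorem relIndex_two_of_card {A B : Subgroup G} (hAB : A ≤ B) (h : Nat.card B = 2 * Nat.card A) :
    A.relIndex B = 2 := by
  have := card_mul_index (A.subgroupOf B)
  rw [Nat.card_congr (subgroupOfEquivOfLe hAB).toEquiv, h, mul_comm] at this
  exact Nat.eq_of_mul_eq_mul_right Nat.card_pos this

end gen

variable {T : Type*} [Group T] [Finite T]

local notation "ζ" => Subgroup.upperCentralSeries T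

omit [Finite T] in
theorem ucs_succ {n : ℕ} {x : T} : x ∈ ζ (n + 1) ↔ ∀ y : T, y * x * y⁻¹ * x⁻¹ ∈ ζ n := by
  rw [Subgroup.mem_upperCentralSeries_succ_iff]
  refine forall_congr' fun y => ?_
  rw [← inv_mem_iff, commutatorElement_inv, commutatorElement_def]

omit [Finite T] in
theorem ucs_mono {i j : ℕ} (h : i ≤ j) : ζ i ≤ ζ j := Subgroup.upperCentralSeries_mono T h

omit [Finite T] in
theorem ucs_zero {x : T} : x ∈ ζ 0 ↔ x = 1 := mem_bot

omit [Finite T] in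
theorem ucs_one {x : T} (h : x ∈ ζ 1) (y : T) : y * x = x * y := by
  have := ucs_zero.1 (ucs_succ.1 h y)
  rwa [mul_inv_eq_one, mul_inv_eq_iff_eq_mul] at this

theorem exists_ucs (hT : IsPGroup 2 T) {N : Subgroup T} [N.Normal] (i : ℕ) (h : ¬ N ≤ ζ i) :
    ∃ x ∈ N, x ∈ ζ (i + 1) ∧ x ∉ ζ i := by
  have := hT.isNilpotent
  obtain ⟨n, hn⟩ := Group.IsNilpotent.nilpotent T
  by_contra hc
  push Not at hc
  have key : ∀ k, ∀ x ∈ N, x ∈ ζ (i + k) → x ∈ ζ i := by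
    intro k
    induction k with
    | zero => exact fun x _ h => h
    | succ k ih =>
      intro x hx hxk
      exact hc x hx (ucs_succ.2 fun y => ih _ (N.mul_mem (‹N.Normal›.conj_mem _ hx y) (N.inv_mem hx))
        (ucs_succ.1 hxk y))
  exact h fun x hx => key n x hx (ucs_mono (Nat.le_add_left n i) (hn ▸ mem_top x))

/-- the hypotheses on the `2`-group `T` -/
structure Hyp (W : Subgroup T) : Prop where
  pg : IsPGroup 2 T
  big : 2 ^ 14 ≤ Nat.card T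
  z4 : Nat.card (ζ 4) = 16
  W_eq : W = centralizer ((ζ 3 : Subgroup T) : Set T)
  phi : Nat.card (frattini W) ≤ 8
  d : ∀ U : Subgroup W, U.index ≤ 16 → frattini W ≤ U

variable {W : Subgroup T}

theorem Hyp.card_ucs (h : Hyp W) : ∀ i ≤ 4, Nat.card (ζ i) = 2 ^ i := by
  have step : ∀ i ≤ 3, 2 * Nat.card (ζ i) ≤ Nat.card (ζ (i + 1)) := by
    intro i hi
    have hle : ζ i ≤ ζ (i + 1) := ucs_mono (Nat.le_succ i)
    have hne : ¬ (⊤ : Subgroup T) ≤ ζ i := fun e => by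
      have h1 : (⊤ : Subgroup T) ≤ ζ 4 := e.trans (ucs_mono (by omega))
      have h2 := card_le_of_le h1
      rw [card_top, h.z4] at h2
      have := h.big
      omega
    obtain ⟨x, -, hx, hx'⟩ := exists_ucs h.pg i hne
    obtain ⟨k, hk⟩ := card_dvd_of_le hle
    have hk0 : k ≠ 0 := fun e => by
      rw [e, mul_zero] at hk; exact Nat.card_pos.ne' hk
    have hk1 : k ≠ 1 := fun e => by
      rw [e, mul_one] at hk
      exact hx' (eq_of_le_of_card_ge hle hk.le ▸ hx)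
    rw [hk, mul_comm]
    exact Nat.mul_le_mul_left _ (by omega)
  have h0 : Nat.card (ζ 0) = 1 := card_bot
  have h4 := h.z4
  have s0 := step 0 (by omega)
  have s1 := step 1 (by omega)
  have s2 := step 2 (by omega)
  have s3 := step 3 (by omega)
  intro i hi
  simp only [zero_add, Nat.reduceAdd] at s0 s1 s2 s3
  interval_cases i <;> omega

theorem Hyp.rel (h : Hyp W) {i : ℕ} (hi : i ≤ 3) : (ζ i).relIndex (ζ (i + 1)) = 2 :=
  relIndex_two_of_card (ucs_mono (Nat.le_succ i))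
    (by rw [h.card_ucs i (by omega), h.card_ucs (i + 1) (by omega), pow_succ'])

/-- normal subgroups are comparable with the small terms of the upper central series -/
theorem Hyp.ucs_le (h : Hyp W) {N : Subgroup T} [N.Normal] : ∀ i ≤ 3, ¬ N ≤ ζ i → ζ (i + 1) ≤ N := by
  intro i
  induction i with
  | zero =>
    intro hi hN y hy
    obtain ⟨x, hx, hx1, hx0⟩ := exists_ucs h.pg 0 hN
    rcases mem_or_of_relIndex_two (h.rel hi) hx1 hx0 hy with e | e
    · rw [ucs_zero] at e; exact e ▸ N.one_mem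
    · rw [ucs_zero, inv_mul_eq_one] at e; exact e ▸ hx
  | succ i ih =>
    intro hi hN y hy
    have h1 := ih (by omega) fun e => hN (e.trans (ucs_mono (Nat.le_succ i)))
    obtain ⟨x, hx, hx1, hx0⟩ := exists_ucs h.pg (i + 1) hN
    rcases mem_or_of_relIndex_two (h.rel hi) hx1 hx0 hy with e | e
    · exact h1 e
    · simpa using N.mul_mem hx (h1 e)

theorem Hyp.exists_gen (h : Hyp W) {i : ℕ} (hi : i ≤ 3) : ∃ x, x ∈ ζ (i + 1) ∧ x ∉ ζ i := by
  by_contra hc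
  push Not at hc
  have := h.rel hi
  rw [relIndex_eq_one.2 hc] at this
  omega

theorem Hyp.normal (h : Hyp W) : W.Normal := by rw [h.W_eq]; infer_instance

theorem Hyp.mem_W (h : Hyp W) {a b : T} (ha : a ∈ ζ 2) (ha' : a ∉ ζ 1) (hb : b ∈ ζ 3) (hb' : b ∉ ζ 2) {t : T} :
    t ∈ W ↔ t * a = a * t ∧ t * b = b * t := by
  rw [h.W_eq, mem_centralizer_iff]
  refine ⟨fun H => ⟨(H a (ucs_mono (by omega) ha)).symm, (H b hb).symm⟩, fun ⟨h1, h2⟩ => ?_⟩
  have c1 : ∀ z ∈ ζ 1, z * t = t * z := fun z hz => (ucs_one hz t).symm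
  have c2 : ∀ z ∈ ζ 2, z * t = t * z := fun z hz => by
    rcases mem_or_of_relIndex_two (h.rel (i := 1) (by omega)) ha ha' hz with e | e
    · exact c1 z e
    · have := c1 _ e
      rw [show z = a * (a⁻¹ * z) by group, mul_assoc, this, ← mul_assoc, ← h1, mul_assoc]
  intro z hz
  rcases mem_or_of_relIndex_two (h.rel (i := 2) (by omega)) hb hb' hz with e | e
  · exact c2 z e
  · have := c2 _ e
    rw [show z = b * (b⁻¹ * z) by group, mul_assoc, this, ← mul_assoc, ← h2, mul_assoc]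

/-- the action of `T / W` on `Z₃` -/
theorem Hyp.exists_act (h : Hyp W) {a b : T} (ha : a ∈ ζ 2) (ha' : a ∉ ζ 1) (hb : b ∈ ζ 3) (hb' : b ∉ ζ 2) :
    ∃ f : T ⧸ W → ζ 1 × ζ 2, Function.Injective f ∧
      ∀ t : T, t * a * t⁻¹ = (f t).1 * a ∧ t * b * t⁻¹ = (f t).2 * b := by
  let g : T → ζ 1 × ζ 2 := fun t => (⟨_, ucs_succ.1 ha t⟩, ⟨_, ucs_succ.1 hb t⟩)
  have c : ∀ x s t : T, s * x * s⁻¹ * x⁻¹ = t * x * t⁻¹ * x⁻¹ ↔ s⁻¹ * t * x = x * (s⁻¹ * t) := fun x s t => by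
    rw [mul_left_inj]
    constructor
    · intro e
      calc s⁻¹ * t * x = s⁻¹ * (t * x * t⁻¹) * t := by group
        _ = _ := by rw [← e]; group
    · intro e
      calc s * x * s⁻¹ = s * (x * (s⁻¹ * t)) * t⁻¹ := by group
        _ = _ := by rw [← e]; group
  have hg : ∀ s t : T, g s = g t ↔ s⁻¹ * t ∈ W := fun s t => by
    rw [h.mem_W ha ha' hb hb', ← c, ← c]
    simp only [g, Prod.mk.injEq, Subtype.mk.injEq]
  refine ⟨fun q => Quotient.liftOn' q g fun s t e => (hg s t).2 (QuotientGroup.leftRel_apply.1 e), ?_,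
    fun t => ⟨(inv_mul_cancel_right _ _).symm, (inv_mul_cancel_right _ _).symm⟩⟩
  intro p q
  induction p using QuotientGroup.induction_on
  induction q using QuotientGroup.induction_on
  intro e
  exact QuotientGroup.eq.2 ((hg _ _).1 e)

theorem Hyp.index_le (h : Hyp W) : W.index ≤ 8 := by
  obtain ⟨a, ha, ha'⟩ := h.exists_gen (i := 1) (by omega)
  obtain ⟨b, hb, hb'⟩ := h.exists_gen (i := 2) (by omega)
  obtain ⟨f, hf, -⟩ := h.exists_act ha ha' hb hb'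
  have := Nat.card_le_card_of_injective f hf
  rwa [Nat.card_prod, h.card_ucs 1 (by omega), h.card_ucs 2 (by omega)] at this

/-- `W / Z_k` embeds in the regular module -/
theorem exists_reg [W.Normal] {M : Subgroup T} (hM : M.relIndex W = 2) (hc : ∀ x ∈ W, ∀ y ∈ W, ⁅x, y⁆ ∈ M) :
    ∃ Ψ : W →* (T ⧸ W → ℤˣ), (∀ (w : W) (t : T), Ψ w t = 1 ↔ t⁻¹ * w * t ∈ M) := by
  classical
  let κ : T → ℤˣ := fun g => if g ∈ M then 1 else -1
  have hκ1 : ∀ g, κ g = 1 ↔ g ∈ M := fun g => by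
    by_cases h : g ∈ M <;> simp [κ, h]
  have hκ : ∀ a ∈ W, ∀ b ∈ W, κ (a * b) = κ a * κ b := by
    intro a ha b hb
    have := Subgroup.mul_mem_iff_of_index_two (H := M.subgroupOf W) hM (a := ⟨a, ha⟩) (b := ⟨b, hb⟩)
    simp only [Subgroup.mem_subgroupOf, Subgroup.coe_mul] at this
    by_cases h1 : a ∈ M <;> by_cases h2 : b ∈ M <;> simp_all [κ]
  have hn : ∀ (w : W) (t : T), t⁻¹ * w * t ∈ W := fun w t => ‹W.Normal›.conj_mem' _ w.2 t
  refine ⟨MonoidHom.mk' (fun w q => Quotient.liftOn' q (fun t => κ (t⁻¹ * w * t)) fun s t e => ?_) ?_,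
    fun w t => hκ1 _⟩
  · have e1 := QuotientGroup.leftRel_apply.1 e
    have e2 : t⁻¹ * w * t = ⁅(s⁻¹ * t)⁻¹, s⁻¹ * w * s⁆ * (s⁻¹ * w * s) := by
      rw [commutatorElement_def]; group
    have e3 : ⁅(s⁻¹ * t)⁻¹, s⁻¹ * w * s⁆ ∈ W := by
      rw [commutatorElement_def]
      exact W.mul_mem (W.mul_mem (W.mul_mem (W.inv_mem e1) (hn w s)) (W.inv_mem (W.inv_mem e1))) (W.inv_mem (hn w s))
    show κ _ = κ _
    rw [e2, hκ _ e3 _ (hn w s), (hκ1 _).2 (hc _ (W.inv_mem e1) _ (hn w s)), one_mul]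
  · intro x y
    funext q
    induction q using QuotientGroup.induction_on with
    | H t =>
      show κ _ = κ _ * κ _
      rw [← hκ _ (hn x t) _ (hn y t)]
      congr 1
      simp only [coe_mul]; group

theorem Hyp.main (h : Hyp W) [W.Normal] : W.index = 8 ∧ Nat.card W = 2 ^ 11 ∧ (frattini W).map W.subtype = ζ 3 ∧
    ∃ Ψ : W →* (T ⧸ W → ℤˣ), Function.Surjective Ψ ∧ (∀ w : W, Ψ w = 1 → (w : T) ∈ ζ 3) ∧
      ∀ (w w' : W) (s t : T), (w' : T) = s * w * s⁻¹ → Ψ w' t = Ψ w (s⁻¹ * t : T) := by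
  set Φ := (frattini W).map W.subtype with hΦ
  have hΦn : Φ.Normal := inferInstance
  have hΦc : Nat.card Φ ≤ 8 := by
    rw [hΦ, card_map_of_injective W.subtype_injective]; exact h.phi
  obtain ⟨k, hk, hkΦ⟩ : ∃ k ≤ 3, Φ = ζ k := by
    have h3 : Φ ≤ ζ 3 := by
      by_contra hc
      have := card_le_of_le (h.ucs_le 3 le_rfl hc)
      rw [h.z4] at this; omega
    by_cases h2 : Φ ≤ ζ 2
    · by_cases h1 : Φ ≤ ζ 1
      · by_cases h0 : Φ ≤ ζ 0
        · exact ⟨0, by omega, le_antisymm h0 bot_le⟩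
        · exact ⟨1, by omega, le_antisymm h1 (h.ucs_le 0 (by omega) h0)⟩
      · exact ⟨2, by omega, le_antisymm h2 (h.ucs_le 1 (by omega) h1)⟩
    · exact ⟨3, by omega, le_antisymm h3 (h.ucs_le 2 (by omega) h2)⟩
  have hi := h.index_le
  have hW := card_mul_index W
  have hb := h.big
  have hW11 : 2 ^ 11 ≤ Nat.card W := by
    by_contra hc
    have : Nat.card W * W.index ≤ (2 ^ 11 - 1) * 8 := Nat.mul_le_mul (by omega) hi
    omega
  have hck := h.card_ucs k (by omega)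
  have hk8 : 2 ^ k ≤ 2 ^ 3 := Nat.pow_le_pow_right (by omega) hk
  have h1 : ζ (k + 1) ≤ W := h.ucs_le k hk fun e => by
    have := card_le_of_le e
    omega
  obtain ⟨v, hv, hv'⟩ := h.exists_gen hk
  have hv2 : (⟨v, h1 hv⟩ : W) ∉ frattini W := fun e => hv' (hkΦ ▸ ⟨_, e, rfl⟩)
  rw [pg_mem_frattini_iff] at hv2
  push Not at hv2
  obtain ⟨M, hM, hvM⟩ := hv2
  have hmem : ∀ x : W, (x : T) ∈ M.map W.subtype ↔ x ∈ M := fun x =>
    ⟨fun ⟨y, hy, e⟩ => by rwa [← show y = x from Subtype.ext e], fun e => ⟨x, e, rfl⟩⟩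
  obtain ⟨Ψ, hΨ⟩ := exists_reg (W := W) (M := M.map W.subtype) (by
    rw [relIndex, subgroupOf, comap_map_eq_self_of_injective W.subtype_injective]
    exact pg_index_of_isCoatom (h.pg.to_subgroup W) hM) (fun x hx y hy =>
      (hmem ⁅(⟨x, hx⟩ : W), ⟨y, hy⟩⁆).2 (pg_commutator_le_of_isCoatom (h.pg.to_subgroup W) hM
        (commutator_mem_commutator (mem_top _) (mem_top _))))
  have hequiv : ∀ (w w' : W) (s t : T), (w' : T) = s * w * s⁻¹ → Ψ w' t = Ψ w (s⁻¹ * t : T) := by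
    intro w w' s t e
    have : Ψ w' t = 1 ↔ Ψ w (s⁻¹ * t : T) = 1 := by
      rw [hΨ, hΨ, e, show t⁻¹ * (s * w * s⁻¹) * t = (s⁻¹ * t)⁻¹ * w * (s⁻¹ * t) by group]
    rcases Int.units_eq_one_or (Ψ w' t) with a | a <;> rcases Int.units_eq_one_or (Ψ w (s⁻¹ * t : T)) with b | b <;>
      simp_all
  have hKn : (Ψ.ker.map W.subtype).Normal := ⟨by
    rintro _ ⟨w, hw, rfl⟩ s
    refine ⟨⟨s * w * s⁻¹, ‹W.Normal›.conj_mem _ w.2 s⟩, ?_, rfl⟩
    funext q
    induction q using QuotientGroup.induction_on with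
    | H t => rw [hequiv w _ s t rfl, MonoidHom.mem_ker.1 hw]; rfl⟩
  have hK : Ψ.ker.map W.subtype ≤ ζ k := by
    by_contra hc
    obtain ⟨y, hy, e⟩ := h.ucs_le k hk hc hv
    have := (hΨ y 1).1 (by rw [MonoidHom.mem_ker.1 hy]; rfl)
    rw [inv_one, one_mul, mul_one, hmem, show y = ⟨v, h1 hv⟩ from Subtype.ext e] at this
    exact hvM this
  have c1 := card_le_of_le hK
  rw [card_map_of_injective W.subtype_injective, hck] at c1
  have c2 := card_mul_index Ψ.ker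
  rw [index_ker] at c2
  have c3 : Nat.card (T ⧸ W → ℤˣ) = 2 ^ W.index := by
    rw [Nat.card_fun, Nat.card_eq_fintype_card, Fintype.card_units_int]; rfl
  have c4 : Nat.card Ψ.range ≤ 2 ^ W.index := c3 ▸ card_le_card_group _
  have c5 : Nat.card W ≤ 2 ^ k * 2 ^ W.index := c2 ▸ Nat.mul_le_mul c1 c4
  have c6 : W.index = 8 := by
    by_contra hc
    have e1 : 2 ^ W.index ≤ 2 ^ 7 := Nat.pow_le_pow_right (by omega) (by omega)
    have := Nat.mul_le_mul hk8 e1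
    omega
  rw [c6] at c3 c4 c5
  have c7 : k = 3 := by
    by_contra hc
    have e1 : 2 ^ k ≤ 2 ^ 2 := Nat.pow_le_pow_right (by omega) (by omega)
    omega
  subst c7
  refine ⟨c6, by omega, hkΦ, Ψ, ?_, fun w hw => hK ⟨w, hw, rfl⟩, hequiv⟩
  rw [← MonoidHom.range_eq_top, ← card_eq_iff_eq_top, c3]
  by_contra hc
  have : Nat.card Ψ.ker * Nat.card Ψ.range ≤ 2 ^ 3 * (2 ^ 8 - 1) := Nat.mul_le_mul c1 (by omega)
  omega

theorem Hyp.phi_eq (h : Hyp W) : (frattini W).map W.subtype = ζ 3 :=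
  have := h.normal; h.main.2.2.1

theorem Hyp.card_W (h : Hyp W) : Nat.card W = 2 ^ 11 :=
  have := h.normal; h.main.2.1

theorem Hyp.index (h : Hyp W) : W.index = 8 :=
  have := h.normal; h.main.1

theorem Hyp.z_le (h : Hyp W) : ζ 3 ≤ W := h.phi_eq ▸ map_subtype_le _

theorem Hyp.sq (h : Hyp W) {w : T} (hw : w ∈ W) : w * w ∈ ζ 3 :=
  h.phi_eq ▸ ⟨_, pg_pow_mem_frattini (h.pg.to_subgroup W) ⟨w, hw⟩, pow_two w⟩

theorem Hyp.comm (h : Hyp W) {w z : T} (hw : w ∈ W) (hz : z ∈ ζ 3) : z * w = w * z := by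
  rw [h.W_eq] at hw; exact hw z hz

theorem Hyp.d' (h : Hyp W) (U : Subgroup T) (_ : U ≤ W) (hU : U.relIndex W ≤ 16) : ζ 3 ≤ U := by
  rw [← h.phi_eq]
  rintro _ ⟨x, hx, rfl⟩
  exact h.d (U.subgroupOf W) hU hx

theorem Hyp.commutator_eq (h : Hyp W) : ⁅W, W⁆ = ζ 3 := by
  have := h.normal
  have hle : ⁅W, W⁆ ≤ ζ 3 := by
    rw [← h.phi_eq, pg_map_frattini_subtype (h.pg.to_subgroup W)]; exact le_sup_left
  refine le_antisymm hle (h.ucs_le 2 (by omega) fun hc => ?_)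
  let π := QuotientGroup.mk' (ζ 2)
  have hcomm : ∀ x y : W, π x * π y = π y * π x := fun x y => by
    rw [← commutatorElement_eq_one_iff_mul_comm, ← map_commutatorElement]
    exact (QuotientGroup.eq_one_iff _).2 (hc (commutator_mem_commutator x.2 y.2))
  let σ : W →* T ⧸ ζ 2 := MonoidHom.mk' (fun w => π w * π w) fun x y => by
    simp only [coe_mul, map_mul]
    rw [mul_assoc, ← mul_assoc (π y), ← hcomm x y]; simp only [mul_assoc]
  have h1 : σ.range ≤ (ζ 3).map π := by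
    rintro _ ⟨w, rfl⟩
    exact ⟨w * w, h.sq w.2, map_mul π _ _⟩
  have h2 := card_le_of_le h1
  rw [← relIndex_ker, QuotientGroup.ker_mk', h.rel (i := 2) (by omega), ← index_ker] at h2
  have h3 : ζ 3 ≤ ζ 2 := le_of_sq (h.pg.to_subgroup W) h.d' (U := σ.ker.map W.subtype) (map_subtype_le _) (by
    rw [relIndex, subgroupOf, comap_map_eq_self_of_injective W.subtype_injective]; omega) (by
    rintro _ ⟨w, hw, rfl⟩
    exact (QuotientGroup.eq_one_iff _).1 ((map_mul π _ _).trans hw))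
  have := card_le_of_le h3
  rw [h.card_ucs 3 (by omega), h.card_ucs 2 (by omega)] at this
  omega

theorem Hyp.z_sq (h : Hyp W) {z : T} (hz : z ∈ ζ 3) : z * z = 1 := by
  have hc : ∀ x ∈ W, ∀ y ∈ W, ⁅x, y⁆ ∈ ζ 3 := fun x hx y hy =>
    h.commutator_eq ▸ commutator_mem_commutator hx hy
  have key : ⁅W, W⁆ ≤
      { carrier := {z | z ∈ ζ 3 ∧ z * z = 1}
        one_mem' := ⟨one_mem _, mul_one _⟩
        mul_mem' := fun {a b} ha hb => ⟨mul_mem ha.1 hb.1, by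
          rw [mul_assoc, ← mul_assoc b, h.comm (h.z_le ha.1) hb.1, mul_assoc, hb.2, mul_one, ha.2]⟩
        inv_mem' := fun {a} ha => ⟨inv_mem ha.1, by rw [← mul_inv_rev, ha.2, inv_one]⟩ } := by
    rw [commutator_le]
    intro x hx y hy
    refine ⟨hc x hx y hy, ?_⟩
    have e1 := h.comm hx (hc x hx y hy)
    have e2 := h.comm hy (h.sq hx)
    calc ⁅x, y⁆ * ⁅x, y⁆ = (x * ⁅x, y⁆) * x⁻¹ * ⁅x, y⁆ := by rw [← e1]; group
      _ = (x * x * y) * (x * x)⁻¹ * y⁻¹ := by simp only [commutatorElement_def]; group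
      _ = 1 := by rw [e2]; group
  exact (key (h.commutator_eq ▸ hz)).2

theorem Hyp.dihedral (h : Hyp W) [W.Normal] : Nonempty (T ⧸ W ≃* DihedralGroup 4) := by
  obtain ⟨z, hz, hz'⟩ := h.exists_gen (i := 0) (by omega)
  obtain ⟨a, ha, ha'⟩ := h.exists_gen (i := 1) (by omega)
  obtain ⟨b, hb, hb'⟩ := h.exists_gen (i := 2) (by omega)
  obtain ⟨f, hf, hab⟩ := h.exists_act ha ha' hb hb'
  have hs : Function.Surjective f := (hf.bijective_of_nat_card_le (by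
    rw [Nat.card_prod, h.card_ucs 1 (by omega), h.card_ucs 2 (by omega)]; exact h.index.ge)).2
  obtain ⟨x, hx⟩ := hs (⟨z, hz⟩, ⟨a, ha⟩)
  obtain ⟨y, hy⟩ := hs (⟨z, hz⟩, 1)
  induction x using QuotientGroup.induction_on with | H x => ?_
  induction y using QuotientGroup.induction_on with | H y => ?_
  obtain ⟨xa, xb⟩ := hab x
  obtain ⟨ya, yb⟩ := hab y
  simp only [hx, hy, OneMemClass.coe_one, one_mul] at xa xb ya yb
  have zc := ucs_one hz
  have z1 : z ≠ 1 := fun e => hz' (ucs_zero.2 e)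
  have zz := h.z_sq (ucs_mono (by omega) hz)
  have aa := h.z_sq (ucs_mono (by omega) ha)
  have mem : ∀ t : T, (t : T ⧸ W) = 1 ↔ t * a * t⁻¹ = a ∧ t * b * t⁻¹ = b := fun t => by
    rw [QuotientGroup.eq_one_iff, h.mem_W ha ha' hb hb', mul_inv_eq_iff_eq_mul, mul_inv_eq_iff_eq_mul]
  have cz : ∀ t : T, t * z * t⁻¹ = z := fun t => by rw [zc, mul_inv_cancel_right]
  have cm : ∀ t u v : T, t * (u * v) * t⁻¹ = (t * u * t⁻¹) * (t * v * t⁻¹) := fun t u v => by group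
  have mc : ∀ s t u : T, s * t * u * (s * t)⁻¹ = s * (t * u * t⁻¹) * s⁻¹ := fun t u v => by group
  have x2a : x * x * a * (x * x)⁻¹ = a := by rw [mc, xa, cm, cz, xa, ← mul_assoc, zz, one_mul]
  have x2b : x * x * b * (x * x)⁻¹ = z * b := by
    rw [mc, xb, cm, xa, xb, mul_assoc, ← mul_assoc a, aa, one_mul]
  have x2 : ((x : T ⧸ W)) ^ 2 ≠ 1 := by
    rw [pow_two, ← QuotientGroup.mk_mul, Ne, mem, x2b]
    exact fun e => z1 (mul_eq_right.1 e.2)
  have x4 : ((x : T ⧸ W)) ^ 2 ^ 2 = 1 := by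
    rw [show 2 ^ 2 = 2 + 2 by rfl, pow_add, pow_two, ← QuotientGroup.mk_mul, ← QuotientGroup.mk_mul, mem,
      mc, mc (x * x), x2a, x2a, x2b, cm, cz, x2b, ← mul_assoc, zz, one_mul]
    exact ⟨rfl, rfl⟩
  have ox : orderOf (x : T ⧸ W) = 4 := orderOf_eq_prime_pow (p := 2) (n := 1) x2 x4
  have y2 : (y : T ⧸ W) ^ 2 = 1 := by
    rw [pow_two, ← QuotientGroup.mk_mul, mem, mc, mc, ya, yb, yb, cm, cz, ya, ← mul_assoc, zz, one_mul]
    exact ⟨rfl, rfl⟩
  have yx : ((y * x * (y * x) : T) : T ⧸ W) = 1 := by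
    have e1 : y * x * a * (y * x)⁻¹ = a := by rw [mc, xa, cm, cz, ya, ← mul_assoc, zz, one_mul]
    have e2 : y * x * b * (y * x)⁻¹ = z * (a * b) := by rw [mc, xb, cm, ya, yb, mul_assoc]
    rw [mem, mc, mc (y * x), e1, e1, e2, cm, cz, cm, e1, e2, ← mul_assoc a, zc, mul_assoc, ← mul_assoc a, aa,
      one_mul, ← mul_assoc, zz, one_mul]
    exact ⟨rfl, rfl⟩
  have conj : (y : T ⧸ W) * x * (y : T ⧸ W)⁻¹ = (x : T ⧸ W)⁻¹ := by
    simp only [QuotientGroup.mk_mul] at yx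
    rw [pow_two] at y2
    rw [inv_eq_of_mul_eq_one_right y2, eq_inv_iff_mul_eq_one, ← yx]; simp only [mul_assoc]
  refine pg_nonempty_mulEquiv_dihedral ox h.index (fun hm => ?_) y2 conj
  have e1 : (y : T ⧸ W) * x = x * y := by
    obtain ⟨k, hk⟩ := hm
    rw [← hk]; exact ((Commute.refl _).zpow_left k).eq
  rw [e1, mul_inv_cancel_right] at conj
  exact x2 (by rw [pow_two]; exact mul_eq_one_iff_eq_inv.2 conj)

theorem Hyp.exists_inv (h : Hyp W) {H : Subgroup T} (hH : H ≠ ⊤) : ∃ d, d ∉ H ∧ d * d ∈ W := by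
  have := h.normal
  obtain ⟨e⟩ := h.dihedral
  by_contra hc
  push Not at hc
  have h1 : ∀ (i : ZMod 4) (t : T), e t = DihedralGroup.sr i → t ∈ H := fun i t ht => by
    by_contra hh
    refine hc t hh ((QuotientGroup.eq_one_iff _).1 (e.injective ?_))
    rw [QuotientGroup.mk_mul, map_mul, ht, map_one, DihedralGroup.sr_mul_self]
  refine hH (eq_top_iff.2 fun t _ => ?_)
  obtain ⟨s, hs⟩ := QuotientGroup.mk_surjective (e.symm (DihedralGroup.sr 0))
  have hs' : e s = DihedralGroup.sr 0 := by rw [hs, MulEquiv.apply_symm_apply]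
  rcases ht : e t with i | i
  · have := h1 i (s * t) (by rw [QuotientGroup.mk_mul, map_mul, hs', ht]; simp)
    exact (H.mul_mem_cancel_left (h1 0 s hs')).1 this
  · exact h1 i t ht

theorem Hyp.exists_sq_not_mem (h : Hyp W) : ∃ t : T, t * t ∉ W := by
  have := h.normal
  obtain ⟨e⟩ := h.dihedral
  obtain ⟨s, hs⟩ := QuotientGroup.mk_surjective (e.symm (DihedralGroup.r 1))
  refine ⟨s, fun hh => ?_⟩
  have := (QuotientGroup.eq_one_iff _).2 hh
  rw [QuotientGroup.mk_mul, hs, ← map_mul, MulEquiv.map_eq_one_iff] at this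
  exact absurd this (by decide)

theorem exists_half {Q : Type*} [Group Q] [Finite Q] {δ : Q} (δ1 : δ ≠ 1) (δ2 : ∀ q, δ * (δ * q) = q)
    (f : Q → ℤˣ) (hf : ∀ q, f (δ * q) = f q) : ∃ g : Q → ℤˣ, ∀ q, g q * g (δ * q) = f q := by
  obtain ⟨n, ⟨ι⟩⟩ := Finite.exists_equiv_fin Q
  refine ⟨fun q => if ι q < ι (δ * q) then f q else 1, fun q => ?_⟩
  have h1 : ι (δ * q) ≠ ι q := fun e => δ1 (mul_eq_right.1 (ι.injective e))
  beta_reduce
  rw [δ2, hf]
  rcases lt_or_gt_of_ne h1 with e | e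
  · rw [if_neg e.not_gt, if_pos e, one_mul]
  · rw [if_pos e, if_neg e.not_gt, mul_one]

/-- `W / Z₃` is a free module for an involution of `T / W` -/
theorem Hyp.free (h : Hyp W) {d : T} (hd : d ∉ W) (hd2 : d * d ∈ W) {v : T} (hv : v ∈ W)
    (hvd : d * v * d⁻¹ * v⁻¹ ∈ ζ 3) : ∃ w ∈ W, v⁻¹ * (w * (d * w * d⁻¹)) ∈ ζ 3 := by
  classical
  have hn := h.normal
  obtain ⟨-, -, -, Ψ, hs, hk, he⟩ := h.main
  have hz : ∀ w : W, (w : T) ∈ ζ 3 → Ψ w = 1 := by
    intro w hw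
    rw [← h.commutator_eq] at hw
    have : ⁅W, W⁆ ≤ Ψ.ker.map W.subtype := by
      rw [commutator_le]
      intro x hx y hy
      exact ⟨⁅(⟨x, hx⟩ : W), ⟨y, hy⟩⁆, by
        rw [SetLike.mem_coe, MonoidHom.mem_ker, map_commutatorElement, commutatorElement_eq_one_iff_mul_comm,
          mul_comm], rfl⟩
    obtain ⟨y, hy, e⟩ := this hw
    rwa [← show y = w from Subtype.ext e]
  have he' : ∀ (w : W) (q : T ⧸ W), Ψ ⟨d * w * d⁻¹, hn.conj_mem _ w.2 d⟩ q = Ψ w ((d : T ⧸ W)⁻¹ * q) := by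
    intro w q
    induction q using QuotientGroup.induction_on with
    | H t => exact he w _ d t rfl
  have δ2 : ∀ q : T ⧸ W, (d : T ⧸ W)⁻¹ * ((d : T ⧸ W)⁻¹ * q) = q := fun q => by
    rw [← mul_assoc, ← mul_inv_rev, ← QuotientGroup.mk_mul, (QuotientGroup.eq_one_iff _).2 hd2, inv_one, one_mul]
  have δ1 : (d : T ⧸ W)⁻¹ ≠ 1 := fun e => by
    rw [inv_eq_one, QuotientGroup.eq_one_iff] at e; exact hd e
  have hinv : Ψ ⟨d * v * d⁻¹, hn.conj_mem _ hv d⟩ = Ψ ⟨v, hv⟩ := by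
    have := hz (⟨d * v * d⁻¹, hn.conj_mem _ hv d⟩ * (⟨v, hv⟩ : W)⁻¹) (by rw [coe_mul, coe_inv]; exact hvd)
    rwa [map_mul, map_inv, mul_inv_eq_one] at this
  obtain ⟨g, hg⟩ := exists_half δ1 δ2 (Ψ ⟨v, hv⟩) (fun q => (he' ⟨v, hv⟩ q).symm.trans (congrFun hinv q))
  obtain ⟨w, rfl⟩ := hs g
  have := hk ((⟨v, hv⟩ : W)⁻¹ * (w * ⟨d * w * d⁻¹, hn.conj_mem _ w.2 d⟩)) (by
    rw [map_mul, map_mul, map_inv, inv_mul_eq_one]
    funext q
    rw [Pi.mul_apply, he', hg])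
  rw [coe_mul, coe_mul, coe_inv] at this
  exact ⟨w, w.2, this⟩

theorem Hyp.not_central (h : Hyp W) : ¬ ζ 4 ≤ centralizer (W : Set T) := by
  intro hc
  have hn := h.normal
  obtain ⟨v, hv, hv'⟩ := h.exists_gen (i := 3) le_rfl
  have hvW : v ∈ W := h.ucs_le 3 le_rfl (fun e => by
    have := card_le_of_le e
    rw [h.card_W, h.card_ucs 3 (by omega)] at this; omega) hv
  have hvc : ∀ w ∈ W, w * v = v * w := hc hv
  let π := QuotientGroup.mk' (ζ 2)
  let H : Subgroup T := (centralizer {π v}).comap π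
  have hH : ∀ t, t ∈ H ↔ t * v * t⁻¹ * v⁻¹ ∈ ζ 2 := fun t => by
    rw [mem_comap, mem_centralizer_singleton_iff, ← QuotientGroup.eq_one_iff, ← commutatorElement_def,
      ← commutatorElement_eq_one_iff_mul_comm, ← map_commutatorElement]; rfl
  have hWH : W ≤ H := fun w hw => by rw [hH, hvc w hw]; simp
  obtain ⟨d, hd, hd2⟩ := h.exists_inv (H := H) (fun e => hv' (ucs_succ.2 fun t => (hH t).1 (e ▸ mem_top t)))
  obtain ⟨u, hu, hu'⟩ := h.free (fun e => hd (hWH e)) hd2 hd2 (by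
    rw [show d * (d * d) * d⁻¹ * (d * d)⁻¹ = 1 by group]; exact one_mem _)
  have hd' : u⁻¹ * d ∉ H := fun e => hd ((H.mul_mem_cancel_left (H.inv_mem (hWH hu))).1 e)
  have hd3 : u⁻¹ * d * (u⁻¹ * d) ∈ ζ 3 := by
    have e : ⁅u⁻¹, d * u⁻¹ * d⁻¹⁆ ∈ ζ 3 :=
      h.commutator_eq ▸ commutator_mem_commutator (inv_mem hu) (hn.conj_mem _ (inv_mem hu) d)
    have := mul_mem e (inv_mem hu')
    rwa [show ⁅u⁻¹, d * u⁻¹ * d⁻¹⁆ * ((d * d)⁻¹ * (u * (d * u * d⁻¹)))⁻¹ = u⁻¹ * d * (u⁻¹ * d) by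
      rw [commutatorElement_def]; group] at this
  generalize u⁻¹ * d = d at hd' hd3
  obtain ⟨w, hw, hw'⟩ := h.free (fun e => hd' (hWH e)) (h.z_le hd3) hvW (ucs_succ.1 hv d)
  obtain ⟨z, hz⟩ : ∃ z, z = v⁻¹ * (w * (d * w * d⁻¹)) := ⟨_, rfl⟩
  rw [← hz] at hw'
  have e1 : d * w * d⁻¹ = w⁻¹ * v * z := by rw [hz]; group
  have e2 : d * (d * w * d⁻¹) * d⁻¹ = w := by
    rw [show d * (d * w * d⁻¹) * d⁻¹ = d * d * w * (d * d)⁻¹ by group, h.comm hw hd3, mul_inv_cancel_right]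
  have e3 : d * v * d⁻¹ = w⁻¹ * v * z * w * (d * z * d⁻¹)⁻¹ := by
    rw [← e1]
    calc d * v * d⁻¹ = d * (w * (d * w * d⁻¹) * z⁻¹) * d⁻¹ := by rw [hz]; group
      _ = d * w * d⁻¹ * (d * (d * w * d⁻¹) * d⁻¹) * (d * z * d⁻¹)⁻¹ := by group
      _ = _ := by rw [e2]
  have e4 : w⁻¹ * v * z * w = v * z := by
    rw [mul_assoc, h.comm hw hw', ← mul_assoc, mul_assoc w⁻¹, ← hvc w hw]; group
  apply hd'
  rw [hH, e3, e4]
  have h2 : (ζ 2).Normal := inferInstance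
  have := h2.conj_mem _ (inv_mem (ucs_succ.1 hw' d)) v
  rwa [show v * (d * z * d⁻¹ * z⁻¹)⁻¹ * v⁻¹ = v * z * (d * z * d⁻¹)⁻¹ * v⁻¹ by group] at this

theorem Hyp.center_eq (h : Hyp W) : W ⊓ centralizer (W : Set T) = ζ 3 := by
  have := h.normal
  refine le_antisymm ?_ (le_inf h.z_le fun z hz w hw => (h.comm hw hz).symm)
  by_contra hc
  exact h.not_central ((h.ucs_le 3 le_rfl hc).trans inf_le_right)

end Cfsg.Lib.RuSyl
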