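import Mathlib
import Cfsg.Agent.Lib.RuSyl.Two
import Cfsg.Agent.Lib.RuSyl.Aut
import Cfsg.Agent.Lib.Misc.ExTransfer
import Cfsg.Agent.Lib.Core.Glau

set_option autoImplicit false

namespace Cfsg.Lib.RuSyl

open Subgroup
open scoped commutatorElement

universe u

variable {G : Type u} [Group G] [Finite G]

/-- the special group `W` with centre `Z` -/
structure WS (W Z : Subgroup G) : Prop where
  pg : IsPGroup 2 W
  ZW : Z ≤ W
  cardZ : Nat.card Z = 8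
  cardW : Nat.card W = 2 ^ 11
  sq : ∀ w ∈ W, w * w ∈ Z
  zsq : ∀ z ∈ Z, z * z = 1
  comm : ∀ w ∈ W, ∀ z ∈ Z, z * w = w * z
  comm_eq : ⁅W, W⁆ = Z
  d : ∀ U : Subgroup G, U ≤ W → U.relIndex W ≤ 16 → Z ≤ U

omit [Finite G] in
theorem WS.map {W Z : Subgroup G} (h : WS W Z) {G' : Type*} [Group G'] (f : G →* G') (hf : Function.Injective f) :
    WS (W.map f) (Z.map f) where
  pg := h.pg.map f
  ZW := map_mono h.ZW
  cardZ := by rw [card_map_of_injective hf, h.cardZ]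
  cardW := by rw [card_map_of_injective hf, h.cardW]
  sq := by rintro _ ⟨w, hw, rfl⟩; exact ⟨w * w, h.sq w hw, map_mul f w w⟩
  zsq := by rintro _ ⟨z, hz, rfl⟩; rw [← map_mul, h.zsq z hz, map_one]
  comm := by rintro _ ⟨w, hw, rfl⟩ _ ⟨z, hz, rfl⟩; rw [← map_mul, h.comm w hw z hz, map_mul]
  comm_eq := by rw [← map_commutator, h.comm_eq]
  d := fun U _ hU => map_le_iff_le_comap.2 ((h.d (U.comap f ⊓ W) inf_le_right (by
    rwa [inf_relIndex_right, relIndex_comap])).trans inf_le_left)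

omit [Finite G] in
theorem WS.normZ {W Z : Subgroup G} (h : WS W Z) : normalizer (W : Set G) ≤ normalizer (Z : Set G) := by
  intro g hg
  rw [← h.comm_eq]
  rw [mem_normalizer_iff_map_conj_eq] at hg ⊢
  rw [map_commutator, hg]

/-- the Sylow subgroup `T` -/
structure RS (T W Z : Subgroup G) : Prop extends WS W Z where
  pT : IsPGroup 2 T
  WT : W ≤ T
  memW : ∀ t ∈ T, t ∈ centralizer (Z : Set G) → t ∈ W
  normW : T ≤ normalizer (W : Set G)
  idx : W.relIndex T = 8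
  nsq : ∃ t ∈ T, t * t ∉ W
  uniq : ∀ v ∈ W, ∀ w ∈ W, v ∉ Z → w ∉ Z → (∀ t ∈ T, t * v * t⁻¹ * v⁻¹ ∈ Z) → (∀ t ∈ T, t * w * t⁻¹ * w⁻¹ ∈ Z) →
    v⁻¹ * w ∈ Z
  flag : ∃ Z₁ Z₂ : Subgroup G, (⊥ : Subgroup G).relIndex Z₁ = 2 ∧ Z₁.relIndex Z₂ = 2 ∧ Z₂.relIndex Z = 2 ∧
    (∀ z, z ∈ Z₁ ↔ z ∈ Z ∧ ∀ t ∈ T, t * z * t⁻¹ * z⁻¹ ∈ (⊥ : Subgroup G)) ∧
    (∀ z, z ∈ Z₂ ↔ z ∈ Z ∧ ∀ t ∈ T, t * z * t⁻¹ * z⁻¹ ∈ Z₁)

theorem Hyp.rs {T : Subgroup G} {W : Subgroup T} (h : Hyp W) :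
    RS T (W.map T.subtype) ((Subgroup.upperCentralSeries T 3).map T.subtype) := by
  have hn := h.normal
  have h0 : WS W (Subgroup.upperCentralSeries T 3) :=
    ⟨h.pg.to_subgroup W, h.z_le, h.card_ucs 3 (by omega), h.card_W, fun _ => h.sq, fun _ => h.z_sq,
      fun _ hw _ hz => h.comm hw hz, h.commutator_eq, h.d'⟩
  have mm : ∀ (A : Subgroup T) (x : T), (x : G) ∈ A.map T.subtype ↔ x ∈ A := fun A x =>
    mem_map_iff_mem T.subtype_injective
  have succ : ∀ (i : ℕ) (x : T), x ∈ Subgroup.upperCentralSeries T (i + 1) ↔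
      ∀ t ∈ T, t * x * t⁻¹ * (x : G)⁻¹ ∈ (Subgroup.upperCentralSeries T i).map T.subtype := fun i x => by
    rw [ucs_succ]
    exact ⟨fun H t ht => (mm _ _).2 (H ⟨t, ht⟩), fun H t => (mm _ _).1 (H t t.2)⟩
  have rel : ∀ i ≤ 3, ((Subgroup.upperCentralSeries T i).map T.subtype).relIndex
      ((Subgroup.upperCentralSeries T (i + 1)).map T.subtype) = 2 := fun i hi => by
    rw [relIndex_map_map_of_injective _ _ T.subtype_injective, h.rel hi]
  have fl : ∀ i ≤ 2, ∀ z, z ∈ (Subgroup.upperCentralSeries T (i + 1)).map T.subtype ↔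
      z ∈ (Subgroup.upperCentralSeries T 3).map T.subtype ∧
        ∀ t ∈ T, t * z * t⁻¹ * z⁻¹ ∈ (Subgroup.upperCentralSeries T i).map T.subtype := by
    intro i hi z
    constructor
    · rintro ⟨z, hz, rfl⟩
      exact ⟨⟨z, ucs_mono (by omega) hz, rfl⟩, (succ i z).1 hz⟩
    · rintro ⟨⟨z, -, rfl⟩, hz⟩
      exact ⟨z, (succ i z).2 hz, rfl⟩
  have b0 : (Subgroup.upperCentralSeries T 0).map T.subtype = ⊥ := map_bot _
  refine ⟨h0.map _ T.subtype_injective, h.pg, map_subtype_le W, fun t ht hc => (mm W ⟨t, ht⟩).2 ?_, ?_, ?_, ?_, ?_,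
    _, _, b0 ▸ rel 0 (by omega), rel 1 (by omega), rel 2 (by omega), b0 ▸ fl 0 (by omega), fl 1 (by omega)⟩
  · rw [h.W_eq]
    exact fun z hz => Subtype.ext (hc z ⟨z, hz, rfl⟩)
  · intro t ht
    refine h9_mem_normalizer_of_conj_mem ?_
    rintro _ ⟨w, hw, rfl⟩
    exact ⟨_, hn.conj_mem w hw ⟨t, ht⟩, rfl⟩
  · rw [relIndex, subgroupOf, comap_map_eq_self_of_injective T.subtype_injective, h.index]
  · obtain ⟨t, ht⟩ := h.exists_sq_not_mem
    exact ⟨t, t.2, fun e => ht ((mm W (t * t)).1 e)⟩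
  · rintro _ ⟨v, -, rfl⟩ _ ⟨w, -, rfl⟩ hv hw hv' hw'
    exact (mem_or_of_relIndex_two (rel 3 le_rfl) ⟨v, (succ 3 v).2 hv', rfl⟩ hv ⟨w, (succ 3 w).2 hw', rfl⟩).resolve_left hw

variable {T W Z : Subgroup G}

theorem RS.le_W (h : RS T W Z) {W₁ Z₁ U : Subgroup G} (h₁ : WS W₁ Z₁) (hUT : U ≤ T) (hU : U ≤ W₁)
    (h2 : U.relIndex W₁ ≤ 2) : U ≤ W := by
  have hn : (W.subgroupOf T).Normal := (normal_subgroupOf_iff_le_normalizer h.WT).2 h.normW
  have e0 : W.relIndex U = (W.subgroupOf T).relIndex (U.subgroupOf T) := (relIndex_subgroupOf hUT).symm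
  have e1 : W.relIndex U ∣ 8 := by rw [e0, ← h.idx]; exact relIndex_dvd_index_of_normal _ _
  have e2 : (U ⊓ W).relIndex W₁ = W.relIndex U * U.relIndex W₁ := by
    rw [← relIndex_mul_relIndex (U ⊓ W) U W₁ inf_le_left hU, inf_relIndex_left]
  have e3 : Z₁ ≤ U ⊓ W := h₁.d _ (inf_le_left.trans hU) (by
    rw [e2]; exact Nat.mul_le_mul (Nat.le_of_dvd (by omega) e1) h2)
  have e4 : W.relIndex U ≤ 4 := by
    have : W.relIndex U ≠ 8 := fun e => by
      have e5 := relIndex_mul_index (le_sup_left : W.subgroupOf T ≤ W.subgroupOf T ⊔ U.subgroupOf T)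
      rw [relIndex_sup_left, ← e0, e, ← relIndex, h.idx] at e5
      have e6 : W.subgroupOf T ⊔ U.subgroupOf T = ⊤ := index_eq_one.1 (by omega)
      obtain ⟨t, ht, ht'⟩ := h.nsq
      obtain ⟨w, hw, u, hu, e7⟩ := (mem_sup_of_normal_left).1 (e6 ▸ mem_top (⟨t, ht⟩ : T))
      have e8 : t = w * u := (congrArg Subtype.val e7).symm
      apply ht'
      rw [e8, show (w : G) * u * (w * u) = w * (u * w * (u : G)⁻¹) * (u * u) by group]
      exact W.mul_mem (W.mul_mem hw (h9_conj_mem_of_mem_normalizer (h.normW u.2) hw)) (e3 (h₁.sq _ (hU hu))).2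
    have e9 := Nat.le_of_dvd (by omega) e1
    generalize W.relIndex U = n at e1 e9 this
    interval_cases n <;> omega
  have e5 : (U ⊓ W).relIndex W = (U ⊓ W).relIndex W₁ := by
    have a1 := card_mul_index ((U ⊓ W).subgroupOf W)
    have a2 := card_mul_index ((U ⊓ W).subgroupOf W₁)
    rw [Nat.card_congr (subgroupOfEquivOfLe inf_le_right).toEquiv, h.cardW] at a1
    rw [Nat.card_congr (subgroupOfEquivOfLe (inf_le_left.trans hU)).toEquiv, h₁.cardW] at a2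
    exact Nat.eq_of_mul_eq_mul_left Nat.card_pos (a1.trans a2.symm)
  have e6 : Z ≤ Z₁ := le_of_sq h.pg h.d (U := U ⊓ W) inf_le_right (by
    rw [e5, e2]; exact Nat.mul_le_mul e4 h2) fun u hu => h₁.sq u (hU hu.1)
  exact fun u hu => h.memW u (hUT hu) fun z hz => h₁.comm u (hU hu) z (e6 hz)

theorem RS.weak (h : RS T W Z) : IsWeaklyClosed W T := by
  refine ⟨h.WT, fun g hg => eq_of_le_of_card_ge ?_ (h9_card_conj W g).ge⟩
  exact h.le_W (h.toWS.map _ (MulAut.conj g).injective) hg le_rfl (by rw [relIndex_self]; omega)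

omit [Finite G] in
theorem comm_of_odd {x w b : G} (hx : Odd (orderOf x)) (hw : ∃ k : ℕ, w ^ 2 ^ k = 1) (h1 : x * w = w * x)
    (h2 : x * b * x⁻¹ * b⁻¹ = w) : x * b = b * x := by
  have h3 : ∀ n : ℕ, x ^ n * b = w ^ n * b * x ^ n := by
    intro n
    induction n with
    | zero => simp
    | succ n ih =>
      have : Commute x (w ^ n) := (show Commute x w from h1).pow_right n
      rw [pow_succ' x, mul_assoc, ih, ← mul_assoc, ← mul_assoc, this.eq, pow_succ w, ← h2]; group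
  have h4 := h3 (orderOf x)
  rw [pow_orderOf_eq_one, one_mul, mul_one, right_eq_mul] at h4
  obtain ⟨k, hk⟩ := hw
  have h5 : w = 1 := by
    rw [← orderOf_eq_one_iff]
    exact Nat.eq_one_of_dvd_coprimes (hx.coprime_two_right.pow_right k) (orderOf_dvd_of_pow_eq_one h4)
      (orderOf_dvd_of_pow_eq_one hk)
  rwa [h5, mul_inv_eq_one, mul_inv_eq_iff_eq_mul] at h2

omit [Finite G] in
theorem comm_mem_of_relIndex_two {A B : Subgroup G} (h : A.relIndex B = 2) {x : G}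
    (hA : x ∈ normalizer (A : Set G)) (hB : x ∈ normalizer (B : Set G)) {b : G} (hb : b ∈ B) :
    x * b * x⁻¹ * b⁻¹ ∈ A := by
  have := mul_mem_iff_of_index_two (H := A.subgroupOf B) h (a := ⟨_, h9_conj_mem_of_mem_normalizer hB hb⟩)
    (b := ⟨_, B.inv_mem hb⟩)
  simp only [mem_subgroupOf, coe_mul, inv_mem_iff] at this
  exact this.2 (mem_normalizer_iff.1 hA b).symm

/-- an element of odd order normalizing `T C(Z)` centralizes `Z` -/
theorem RS.cent_Z (h : RS T W Z) {x : G} (hx : Odd (orderOf x)) (hZ : x ∈ normalizer (Z : Set G))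
    (hT : ∀ t ∈ T, ∃ s ∈ T, s⁻¹ * (x⁻¹ * t * x) ∈ centralizer (Z : Set G)) : x ∈ centralizer (Z : Set G) := by
  obtain ⟨Z₁, Z₂, r1, r2, r3, m1, m2⟩ := h.flag
  have step : ∀ {A B : Subgroup G}, x ∈ normalizer (A : Set G) →
      (∀ z, z ∈ B ↔ z ∈ Z ∧ ∀ t ∈ T, t * z * t⁻¹ * z⁻¹ ∈ A) → x ∈ normalizer (B : Set G) := by
    intro A B hA hB
    refine h9_mem_normalizer_of_conj_mem fun z hz => ?_
    obtain ⟨hz1, hz2⟩ := (hB z).1 hz
    refine (hB _).2 ⟨h9_conj_mem_of_mem_normalizer hZ hz1, fun t ht => ?_⟩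
    obtain ⟨s, hs, hc⟩ := hT t ht
    have e := hc z hz1
    have := h9_conj_mem_of_mem_normalizer hA (hz2 s hs)
    rwa [show x * (s * z * s⁻¹ * z⁻¹) * x⁻¹ = t * (x * z * x⁻¹) * t⁻¹ * (x * z * x⁻¹)⁻¹ by
      calc x * (s * z * s⁻¹ * z⁻¹) * x⁻¹
          = x * s * (z * (s⁻¹ * (x⁻¹ * t * x))) * x⁻¹ * t⁻¹ * (x * z * x⁻¹)⁻¹ := by group
        _ = _ := by rw [e]; group] at this
  have n0 : x ∈ normalizer ((⊥ : Subgroup G) : Set G) := by rw [normalizer_eq_top]; trivial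
  have n1 := step n0 m1
  have n2 := step n1 m2
  have p : ∀ z ∈ Z, ∃ k : ℕ, z ^ 2 ^ k = 1 := fun z hz => ⟨1, by rw [pow_one, pow_two, h.zsq z hz]⟩
  have c1 : ∀ z ∈ Z₁, x * z = z * x := fun z hz =>
    comm_of_odd hx ⟨0, one_pow _⟩ (by simp) (mem_bot.1 (comm_mem_of_relIndex_two r1 n0 n1 hz))
  have c2 : ∀ z ∈ Z₂, x * z = z * x := fun z hz =>
    have := comm_mem_of_relIndex_two r2 n1 n2 hz
    comm_of_odd hx (p _ ((m1 _).1 this).1) (c1 _ this) rfl
  intro z hz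
  have := comm_mem_of_relIndex_two r3 n2 hZ hz
  exact (comm_of_odd hx (p _ ((m2 _).1 this).1) (c2 _ this) rfl).symm

/-- the action of `N(W)` on `W / Z` -/
theorem RS.exists_rep (h : RS T W Z) : ∃ (V : Type u) (_ : CommGroup V) (_ : Finite V)
    (φ : normalizer (W : Set G) →* MulAut V), (∀ v : V, v * v = 1) ∧ Nat.card V = 2 ^ 8 ∧
      Uniq ((T.subgroupOf _).map φ) ∧
      ∀ n : normalizer (W : Set G), φ n = 1 ↔ ∀ w ∈ W, n * w * (n : G)⁻¹ * w⁻¹ ∈ Z := by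
  set N := normalizer (W : Set G)
  have hZn : (Z.subgroupOf N).Normal := (normal_subgroupOf_iff_le_normalizer (h.ZW.trans le_normalizer)).2 h.normZ
  let π := QuotientGroup.mk' (Z.subgroupOf N)
  let V := (W.subgroupOf N).map π
  have hVn : V.Normal := Normal.map inferInstance π (QuotientGroup.mk'_surjective _)
  have hπ : ∀ n : N, π n = 1 ↔ (n : G) ∈ Z := fun n => QuotientGroup.eq_one_iff n
  have h2 : ∀ v : V, v * v = 1 := by
    rintro ⟨_, w, hw, rfl⟩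
    exact Subtype.ext ((map_mul π w w).symm.trans ((hπ _).2 (h.sq w hw)))
  have hc : ∀ a b : V, a * b = b * a := fun a b => by
    have e : ∀ v : V, v⁻¹ = v := fun v => inv_eq_of_mul_eq_one_right (h2 v)
    rw [← e (a * b), mul_inv_rev, e, e]
  let φ : N →* MulAut V := (MulAut.conjNormal (H := V)).comp π
  have hφ : ∀ (n w : N) (hw : π w ∈ V), φ n ⟨π w, hw⟩ = ⟨π w, hw⟩ ↔ n * w * (n : G)⁻¹ * (w : G)⁻¹ ∈ Z := by
    intro n w hw
    rw [Subtype.ext_iff, ← mul_inv_eq_one]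
    refine Iff.trans ?_ (hπ (n * w * n⁻¹ * w⁻¹))
    simp [φ]
  refine ⟨V, { (inferInstance : Group V) with mul_comm := hc }, inferInstance, φ, h2, ?_, ?_, fun n => ?_⟩
  · rw [← relIndex_ker, QuotientGroup.ker_mk', relIndex_subgroupOf le_normalizer]
    have := card_mul_index (Z.subgroupOf W)
    rw [Nat.card_congr (subgroupOfEquivOfLe h.ZW).toEquiv, h.cardZ, h.cardW] at this
    rw [relIndex]; omega
  · rintro ⟨_, v, hv, rfl⟩ ⟨_, w, hw, rfl⟩ v1 w1 hv' hw'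
    have := h.uniq v hv w hw (fun e => v1 (Subtype.ext ((hπ v).2 e))) (fun e => w1 (Subtype.ext ((hπ w).2 e)))
      (fun t ht => (hφ ⟨t, h.normW ht⟩ v _).1 (hv' _ ⟨_, ht, rfl⟩))
      (fun t ht => (hφ ⟨t, h.normW ht⟩ w _).1 (hw' _ ⟨_, ht, rfl⟩))
    exact Subtype.ext (QuotientGroup.eq.2 this)
  · constructor
    · intro e w hw
      exact (hφ n ⟨w, le_normalizer hw⟩ ⟨_, hw, rfl⟩).1 (by rw [e]; rfl)
    · intro e
      ext ⟨_, w, hw, rfl⟩
      exact congrArg Subtype.val ((hφ n w _).2 (e w hw))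

omit [Finite G] in
theorem WS.cent_W (h : WS W Z) {x : G} (hx : Odd (orderOf x)) (hZ : x ∈ centralizer (Z : Set G))
    (hW : ∀ w ∈ W, x * w * x⁻¹ * w⁻¹ ∈ Z) {w : G} (hw : w ∈ W) : x * w = w * x :=
  comm_of_odd hx ⟨1, by rw [pow_one, pow_two, h.zsq _ (hW w hw)]⟩ (hZ _ (hW w hw)).symm rfl

omit [Finite G] in
theorem WS.comm_mem (h : WS W Z) {x w : G} (hx : x ∈ W) (hw : w ∈ W) : x * w * x⁻¹ * w⁻¹ ∈ Z :=
  h.comm_eq ▸ commutator_mem_commutator hx hw

theorem RS.cent_T (h : RS T W Z) {x : G} (hx : Odd (orderOf x)) (hT : x ∈ normalizer (T : Set G)) :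
    x ∈ centralizer (T : Set G) := by
  have hW : x ∈ normalizer (W : Set G) := by
    rw [mem_normalizer_iff_map_conj_eq] at hT ⊢
    exact h.weak.2 x (hT ▸ map_mono h.WT)
  have hZ := h.cent_Z hx (h.normZ hW) fun t ht =>
    ⟨_, h9_conj_mem_of_mem_normalizer' hT ht, by rw [inv_mul_cancel]; exact one_mem _⟩
  have h1 : ∀ t ∈ T, x * t * x⁻¹ * t⁻¹ ∈ W := fun t ht =>
    h.memW _ (T.mul_mem (h9_conj_mem_of_mem_normalizer hT ht) (T.inv_mem ht)) (by
      rw [mul_assoc, mul_assoc, ← mul_assoc t]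
      exact mul_mem hZ (h9_conj_mem_of_mem_normalizer
        (normalizer_le_normalizer_centralizer Z (h.normZ (h.normW ht))) (inv_mem hZ)))
  obtain ⟨V, _, _, φ, h2, h8, hu, hφ⟩ := h.exists_rep
  have : Nontrivial V := Finite.one_lt_card_iff_nontrivial.1 (by rw [h8]; norm_num)
  have h3 := eq_bot_of_centralizes h2 ((h.pT.comap_subtype).map φ) hu (B := zpowers (φ ⟨x, hW⟩)) (by
    rw [Nat.card_zpowers]
    exact hx.of_dvd_nat ((orderOf_map_dvd φ _).trans (orderOf_mk x hW).dvd)) (by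
    rintro _ ⟨t, ht, rfl⟩
    rw [centralizer_zpowers, mem_centralizer_singleton_iff, eq_comm, ← commutatorElement_eq_one_iff_mul_comm,
      ← map_commutatorElement, hφ]
    exact fun w hw => h.comm_mem (h1 t ht) hw)
  rw [zpowers_eq_bot, hφ] at h3
  intro t ht
  obtain ⟨k, hk⟩ := h.pg ⟨_, h1 t ht⟩
  exact (comm_of_odd hx ⟨k, congrArg Subtype.val hk⟩ (h.cent_W hx hZ h3 (h1 t ht)) rfl).symm

theorem npc_of_cent {A P : Subgroup G} (hP : IsSylowIn 2 P A)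
    (h : ∀ x ∈ A, Odd (orderOf x) → x ∈ centralizer (P : Set G)) : HasNormalPComplement 2 A := by
  obtain ⟨S, hS⟩ := hP.exists_sylow'
  refine frobenius_normal_complement_of_coprime S fun Q hQ _ g _ hg q hq => Subtype.ext ?_
  have := hQ hq
  rw [hS] at this
  exact h g g.2 (by rw [orderOf_coe]; exact Nat.coprime_two_right.1 hg) q this

end Cfsg.Lib.RuSyl
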