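import Mathlib
import Cfsg.Agent.Lib.RuSyl.Amb

set_option autoImplicit false

namespace Cfsg.Lib.RuSyl

open scoped Pointwise
open MulAction

section
variable {G X : Type*} [Group G] [MulAction G X] [Fintype X] [DecidableEq X]

/-- data for the stepwise computation of a transfer -/
structure Tr (c : G → X → ℤˣ) (E P : Subgroup G) : Prop where
  coc : ∀ g h y, c (g * h) y = c g (h • y) * c h y
  pg : IsPGroup 2 P
  le : E ≤ P
  norm : P ≤ Subgroup.normalizer (E : Set G)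

variable {c : G → X → ℤˣ} {E P Z : Subgroup G}

theorem Tr.chi_mul (T : Tr c E P) {M : Subgroup G} (q : X) (g : G) {h : G} (hh : h ∈ M) :
    h9_chi c M q (g * h) = h9_chi c M q g * h9_chi c M q h := by
  rw [h9_chi, h9_cocycle_finset T.coc, h9_smul_orb_of_mem hh]; rfl

theorem Tr.chi_one (T : Tr c E P) (M : Subgroup G) (q : X) : h9_chi c M q 1 = 1 := by
  have := T.chi_mul q 1 M.one_mem
  rwa [mul_one, left_eq_mul] at this

theorem Tr.chi_inv (T : Tr c E P) {M : Subgroup G} (q : X) {g : G} (hg : g ∈ M) :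
    h9_chi c M q g⁻¹ = h9_chi c M q g := by
  have := T.chi_mul q g⁻¹ hg
  rw [inv_mul_cancel, T.chi_one] at this
  rw [eq_inv_of_mul_eq_one_left this.symm, Int.units_inv_eq_self]

theorem Tr.step_of [Finite G] (T : Tr c E P) (q : X) {M : Subgroup G} (hL : P ⊓ stabilizer G q ≤ M)
    (hM : M ≤ E ⊔ (P ⊓ stabilizer G q)) {a : G} (ha : a ∈ E) (haM : a ∉ M)
    (haN : a ∈ Subgroup.normalizer (M : Set G)) (ha2 : a * a ∈ M) :
    ∃ M' : Subgroup G, M ≤ M' ∧ M' ≤ E ⊔ (P ⊓ stabilizer G q) ∧ a ∈ M' ∧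
      (∀ g ∈ M', g ∈ M ∨ ∃ m ∈ M, g = a * m) ∧ M.relIndex E = 2 * M'.relIndex E ∧
      (∀ m ∈ M, h9_chi c M' q m = h9_chi c M q (m⁻¹ * (a⁻¹ * m * a))) ∧
      h9_chi c M' q a = h9_chi c M q (a * a) := by
  have hMP : M ≤ P := hM.trans (sup_le T.le inf_le_left)
  let M' : Subgroup G :=
    { carrier := {g | g ∈ M ∨ a⁻¹ * g ∈ M}
      one_mem' := Or.inl M.one_mem
      mul_mem' := by
        rintro x y (hx | hx) (hy | hy)
        · exact Or.inl (M.mul_mem hx hy)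
        · right
          have := M.mul_mem (h9_conj_mem_of_mem_normalizer' haN hx) hy
          rwa [show a⁻¹ * x * a * (a⁻¹ * y) = a⁻¹ * (x * y) by group] at this
        · right
          have := M.mul_mem hx hy
          rwa [mul_assoc] at this
        · left
          have := M.mul_mem (M.mul_mem (h9_conj_mem_of_mem_normalizer haN hx) ha2) hy
          rwa [show a * (a⁻¹ * x) * a⁻¹ * (a * a) * (a⁻¹ * y) = x * y by group] at this
      inv_mem' := by
        rintro x (hx | hx)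
        · exact Or.inl (M.inv_mem hx)
        · right
          have := M.inv_mem (M.mul_mem (h9_conj_mem_of_mem_normalizer haN hx) ha2)
          rwa [show (a * (a⁻¹ * x) * a⁻¹ * (a * a))⁻¹ = a⁻¹ * x⁻¹ by group] at this }
  have hmem : ∀ g, g ∈ M' ↔ g ∈ M ∨ a⁻¹ * g ∈ M := fun g => Iff.rfl
  have hle : M ≤ M' := fun g hg => Or.inl hg
  have haM' : a ∈ M' := Or.inr (by simp)
  have horb : h9_orb M' q = h9_orb M q ∪ a • h9_orb M q := by
    ext v
    simp only [Finset.mem_union, Finset.mem_smul_finset, h9_mem_orb]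
    constructor
    · rintro ⟨m, hm | hm, rfl⟩
      · exact Or.inl ⟨m, hm, rfl⟩
      · exact Or.inr ⟨_, ⟨_, hm, rfl⟩, by simp [mul_smul]⟩
    · rintro (⟨m, hm, rfl⟩ | ⟨_, ⟨m, hm, rfl⟩, rfl⟩)
      · exact ⟨m, hle hm, rfl⟩
      · exact ⟨a * m, M'.mul_mem haM' (hle hm), mul_smul _ _ _⟩
  have hdisj : Disjoint (h9_orb M q) (a • h9_orb M q) := by
    rw [Finset.disjoint_left]
    intro v hv hv'
    obtain ⟨m, hm, rfl⟩ := h9_mem_orb.1 hv
    obtain ⟨_, hw, e⟩ := Finset.mem_smul_finset.1 hv'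
    obtain ⟨n, hn, rfl⟩ := h9_mem_orb.1 hw
    have : m⁻¹ * a * n ∈ M := hL ⟨P.mul_mem (P.mul_mem (P.inv_mem (hMP hm)) (T.le ha)) (hMP hn), mem_stabilizer_iff.2 <| by
      rw [mul_smul, mul_smul, e, inv_smul_smul]⟩
    rw [M.mul_mem_cancel_right hn, M.mul_mem_cancel_left (M.inv_mem hm)] at this
    exact haM this
  have hchi : ∀ g, h9_chi c M' q g = h9_chi c M q g * ∏ v ∈ a • h9_orb M q, c g v := fun g => by
    rw [h9_chi, horb, Finset.prod_union hdisj]; rfl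
  refine ⟨M', hle, fun g hg => ?_, haM', fun g hg => ?_, ?_, fun m hm => ?_, ?_⟩
  · rcases hg with hg | hg
    · exact hM hg
    · have := Subgroup.mul_mem _ (Subgroup.mem_sup_left ha) (hM hg)
      simpa using this
  · exact hg.imp id fun h => ⟨_, h, by group⟩
  · rw [← Subgroup.inf_relIndex_right M, ← Subgroup.inf_relIndex_right M',
      ← Subgroup.relIndex_mul_relIndex (M ⊓ E) (M' ⊓ E) E (inf_le_inf_right E hle) inf_le_right]
    congr 1
    rw [Subgroup.relIndex_eq_two_iff]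
    refine ⟨a, ⟨haM', ha⟩, fun b hb => ?_⟩
    by_cases hbM : b ∈ M
    · exact Or.inr ⟨⟨hbM, hb.2⟩, fun h => haM ((M.mul_mem_cancel_left hbM).1 h.1)⟩
    · refine Or.inl ⟨⟨?_, E.mul_mem hb.2 ha⟩, fun h => hbM h.1⟩
      have := M.mul_mem (h9_conj_mem_of_mem_normalizer haN (hb.1.resolve_left hbM)) ha2
      rwa [show a * (a⁻¹ * b) * a⁻¹ * (a * a) = b * a by group] at this
  · have h1 := h9_conj_mem_of_mem_normalizer' haN hm
    rw [hchi, T.chi_mul q _ h1, T.chi_inv q hm]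
    congr 1
    have h2 := h9_cocycle_finset T.coc m a (h9_orb M q)
    have h3 := T.chi_mul q a h1
    rw [show a * (a⁻¹ * m * a) = m * a by group, h9_chi, h2, mul_comm] at h3
    exact mul_left_cancel h3
  · rw [hchi, h9_chi, h9_chi, h9_cocycle_finset T.coc, mul_comm]

theorem Tr.exists_step [Finite G] (T : Tr c E P) (q : X) {M : Subgroup G}
    (hL : P ⊓ stabilizer G q ≤ M) (hM : M ≤ E ⊔ (P ⊓ stabilizer G q)) (hE : ¬ E ≤ M) :
    ∃ a ∈ E, a ∉ M ∧ a ∈ Subgroup.normalizer (M : Set G) ∧ a * a ∈ M := by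
  obtain ⟨x, hx, hxM, hxN, hx2⟩ := h9_exists_normalizer_not_mem_pow_mem
    (T.pg.to_le (sup_le T.le inf_le_left)) hM (fun h => hE (h ▸ le_sup_left))
  obtain ⟨a, ha, l, hl, rfl⟩ := (mem_sup_of_le_normalizer_left (inf_le_left.trans T.norm)).1 hx
  have hlM := hL hl
  have haN : a ∈ Subgroup.normalizer (M : Set G) :=
    (Subgroup.mul_mem_cancel_right _ (Subgroup.le_normalizer hlM)).1 hxN
  refine ⟨a, ha, fun h => hxM (M.mul_mem h hlM), haN, ?_⟩
  have := M.mul_mem (M.inv_mem (h9_conj_mem_of_mem_normalizer haN hlM)) (M.mul_mem hx2 (M.inv_mem hlM))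
  rwa [pow_two, show (a * l * a⁻¹)⁻¹ * (a * l * (a * l) * l⁻¹) = a * (l⁻¹ * l) * a by group, inv_mul_cancel,
    mul_one] at this

theorem Tr.level0 [Finite G] (T : Tr c E P) (q : X) (n : ℕ) : ∀ {M : Subgroup G},
    M.relIndex E = n → P ⊓ stabilizer G q ≤ M → M ≤ E ⊔ (P ⊓ stabilizer G q) →
    (∀ m ∈ M, h9_chi c M q m = 1) →
    ∀ g ∈ E ⊔ (P ⊓ stabilizer G q), h9_chi c (E ⊔ (P ⊓ stabilizer G q)) q g = 1 := by
  induction n using Nat.strong_induction_on with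
  | _ n ih =>
    intro M hn hL hM h
    by_cases hE : E ≤ M
    · rwa [le_antisymm hM (sup_le hE hL)] at h
    obtain ⟨a, ha, haM, haN, ha2⟩ := T.exists_step q hL hM hE
    obtain ⟨M', h1, h2, h3, h4, h5, h6, h7⟩ := T.step_of q hL hM ha haM haN ha2
    have h0 : M'.relIndex E ≠ 0 := Subgroup.FiniteIndex.index_ne_zero
    have h8 : ∀ m ∈ M, h9_chi c M' q m = 1 := fun m hm => by
      rw [h6 m hm, h _ (M.mul_mem (M.inv_mem hm) (h9_conj_mem_of_mem_normalizer' haN hm))]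
    refine ih _ (by omega) rfl (hL.trans h1) h2 fun g hg => ?_
    rcases h4 g hg with hg | ⟨m, hm, rfl⟩
    · exact h8 g hg
    · rw [T.chi_mul q a (h1 hm), h8 m hm, h7, h _ ha2, mul_one]

theorem Tr.prod_eq_one [Finite G] (T : Tr c E P) (s : Finset X) (hs : ∀ g ∈ P, ∀ q ∈ s, g • q ∈ s)
    (h : ∀ q ∈ s, ∀ g ∈ E ⊔ (P ⊓ stabilizer G q), h9_chi c (E ⊔ (P ⊓ stabilizer G q)) q g = 1) :
    ∀ g ∈ P, ∏ q ∈ s, c g q = 1 := by
  intro g hg
  have h1 := h9_prod_cocycle_eq_one (P := P) (Y := Finset X) (fun p B => ∏ v ∈ B, c p v)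
    (fun p p' B => h9_cocycle_finset T.coc p p' B) (s.image (h9_orb E)) (by
      intro p B hB
      obtain ⟨q, hq, rfl⟩ := Finset.mem_image.1 hB
      exact Finset.mem_image.2 ⟨_, hs p p.2 q hq, (h9_smul_orb (T.norm p.2) q).symm⟩) (by
      intro p B hB e
      obtain ⟨q, hq, rfl⟩ := Finset.mem_image.1 hB
      have e1 : h9_orb (E ⊔ (P ⊓ stabilizer G q)) q = h9_orb E q := by
        ext v
        simp only [h9_mem_orb]
        constructor
        · rintro ⟨m, hm, rfl⟩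
          obtain ⟨a, ha, l, hl, rfl⟩ := (mem_sup_of_le_normalizer_left (inf_le_left.trans T.norm)).1 hm
          exact ⟨a, ha, by rw [mul_smul, show l • q = q from hl.2]⟩
        · rintro ⟨m, hm, rfl⟩
          exact ⟨m, Subgroup.mem_sup_left hm, rfl⟩
      have h2 : (p : G) • q ∈ h9_orb E q := by
        rw [← e]
        exact Finset.smul_mem_smul_finset (h9_mem_orb.2 ⟨1, E.one_mem, one_smul _ _⟩)
      obtain ⟨a, ha, e2⟩ := h9_mem_orb.1 h2
      have h3 : (p : G) ∈ E ⊔ (P ⊓ stabilizer G q) := by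
        have := Subgroup.mul_mem_sup (S := E) (T := P ⊓ stabilizer G q) ha (y := a⁻¹ * p)
          ⟨P.mul_mem (P.inv_mem (T.le ha)) p.2, mem_stabilizer_iff.2 <| by
            rw [mul_smul, ← e2, inv_smul_smul]⟩
        simpa using this
      have := h q hq p h3
      rwa [h9_chi, e1] at this) ⟨g, hg⟩
  rw [← h1, ← Finset.prod_fiberwise_of_maps_to (g := h9_orb E) (t := s.image (h9_orb E))
    (fun q hq => Finset.mem_image_of_mem _ hq)]
  refine Finset.prod_congr rfl fun B hB => Finset.prod_congr ?_ fun _ _ => rfl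
  obtain ⟨q, hq, rfl⟩ := Finset.mem_image.1 hB
  ext v
  rw [Finset.mem_filter]
  constructor
  · rintro ⟨-, e⟩
    rw [← e]; exact h9_mem_orb.2 ⟨1, E.one_mem, one_smul _ _⟩
  · intro hv
    obtain ⟨m, hm, rfl⟩ := h9_mem_orb.1 hv
    exact ⟨hs m (T.le hm) q hq, h9_orb_smul hm q⟩

theorem Tr.level1 [Finite G] (T : Tr c E P) (q : X) {M : Subgroup G}
    (hn : 2 ≤ M.relIndex E) (hL : P ⊓ stabilizer G q ≤ M) (hM : M ≤ E ⊔ (P ⊓ stabilizer G q))
    (h : ∀ m ∈ M, m ∈ E → h9_chi c M q m = 1) :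
    ∀ g ∈ E ⊔ (P ⊓ stabilizer G q), h9_chi c (E ⊔ (P ⊓ stabilizer G q)) q g = 1 := by
  have hMP : M ≤ P := hM.trans (sup_le T.le inf_le_left)
  obtain ⟨a, ha, haM, haN, ha2⟩ := T.exists_step q hL hM (fun h => by
    rw [Subgroup.relIndex_eq_one.2 h] at hn; omega)
  obtain ⟨M', h1, h2, h3, h4, h5, h6, h7⟩ := T.step_of q hL hM ha haM haN ha2
  have h8 : ∀ m ∈ M, h9_chi c M' q m = 1 := fun m hm => by
    rw [h6 m hm, h _ (M.mul_mem (M.inv_mem hm) (h9_conj_mem_of_mem_normalizer' haN hm))]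
    rw [show m⁻¹ * (a⁻¹ * m * a) = m⁻¹ * a⁻¹ * m * a by group]
    exact E.mul_mem (h9_conj_mem_of_mem_normalizer' (T.norm (hMP hm)) (E.inv_mem ha)) ha
  refine T.level0 q _ rfl (hL.trans h1) h2 fun g hg => ?_
  rcases h4 g hg with hg | ⟨m, hm, rfl⟩
  · exact h8 g hg
  · rw [T.chi_mul q a (h1 hm), h8 m hm, h7, h _ ha2 (E.mul_mem ha ha), mul_one]

theorem Tr.level2 [Finite G] (T : Tr c E P) (hE : WS E Z) (q : X)
    {M : Subgroup G} (hn : 4 ≤ M.relIndex E) (hL : P ⊓ stabilizer G q ≤ M)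
    (hM : M ≤ E ⊔ (P ⊓ stabilizer G q)) (h : ∀ m ∈ M, m ∈ Z → h9_chi c M q m = 1) :
    ∀ g ∈ E ⊔ (P ⊓ stabilizer G q), h9_chi c (E ⊔ (P ⊓ stabilizer G q)) q g = 1 := by
  obtain ⟨a, ha, haM, haN, ha2⟩ := T.exists_step q hL hM (fun h => by
    rw [Subgroup.relIndex_eq_one.2 h] at hn; omega)
  obtain ⟨M', h1, h2, h3, h4, h5, h6, h7⟩ := T.step_of q hL hM ha haM haN ha2
  have h8 : ∀ m ∈ M, m ∈ E → h9_chi c M' q m = 1 := fun m hm hmE => by
    rw [h6 m hm, h _ (M.mul_mem (M.inv_mem hm) (h9_conj_mem_of_mem_normalizer' haN hm))]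
    have := hE.comm_mem (E.inv_mem hmE) (E.inv_mem ha)
    rwa [show m⁻¹ * a⁻¹ * m⁻¹⁻¹ * a⁻¹⁻¹ = m⁻¹ * (a⁻¹ * m * a) by group] at this
  refine T.level1 q (by omega) (hL.trans h1) h2 fun g hg hgE => ?_
  rcases h4 g hg with hg | ⟨m, hm, rfl⟩
  · exact h8 g hg hgE
  · rw [T.chi_mul q a (h1 hm), h8 m hm ((E.mul_mem_cancel_left ha).1 hgE), h7, mul_one, h _ ha2 (hE.sq a ha)]

theorem Tr.level3 [Finite G] (T : Tr c E P) (hE : WS E Z) (q : X)
    {M : Subgroup G} (hn : 8 ≤ M.relIndex E) (hL : P ⊓ stabilizer G q ≤ M)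
    (hM : M ≤ E ⊔ (P ⊓ stabilizer G q)) :
    ∀ g ∈ E ⊔ (P ⊓ stabilizer G q), h9_chi c (E ⊔ (P ⊓ stabilizer G q)) q g = 1 := by
  obtain ⟨a, ha, haM, haN, ha2⟩ := T.exists_step q hL hM (fun h => by
    rw [Subgroup.relIndex_eq_one.2 h] at hn; omega)
  obtain ⟨M', h1, h2, h3, h4, h5, h6, h7⟩ := T.step_of q hL hM ha haM haN ha2
  have h8 : ∀ m ∈ M, m * a = a * m → h9_chi c M' q m = 1 := fun m hm e => by
    rw [h6 m hm, mul_assoc, e, inv_mul_cancel_left, inv_mul_cancel, T.chi_one]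
  refine T.level2 hE q (by omega) (hL.trans h1) h2 fun g hg hgZ => ?_
  rcases h4 g hg with hg | ⟨m, hm, rfl⟩
  · exact h8 g hg (hE.comm a ha g hgZ)
  · have e1 : m * a = a * m := mul_left_cancel (a := a) (by rw [← mul_assoc, hE.comm a ha _ hgZ])
    have e2 : a * a = m⁻¹ * m⁻¹ := by
      have := hE.zsq _ hgZ
      rw [mul_assoc, ← mul_assoc m, e1, ← mul_assoc, ← mul_assoc, mul_assoc (a * a)] at this
      rw [eq_inv_of_mul_eq_one_left this, mul_inv_rev]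
    rw [T.chi_mul q a (h1 hm), h8 m hm e1, h7, mul_one, e2, T.chi_mul q _ (M.inv_mem hm), Int.units_mul_self]

end

/-- The transfer theorem. -/
theorem ws_transfer {G : Type*} [Group G] [Finite G] (hres : pResidual 2 G = ⊤)
    {H K E P Z : Subgroup G} (hKi : K.relIndex H = 2) (hE : WS E Z) (hP : IsPGroup 2 P) (hEP : E ≤ P)
    (hPH : P ≤ H) (hPN : P ≤ Subgroup.normalizer (E : Set G))
    (hcase : ∀ t : G, t ∉ H →
      ((∀ e ∈ E, t⁻¹ * e * t ∈ H → t⁻¹ * e * t ∈ K) ∧ 2 ≤ (H.map (MulAut.conj t).toMonoidHom).relIndex E) ∨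
      ((∀ e ∈ Z, t⁻¹ * e * t ∈ H → t⁻¹ * e * t ∈ K) ∧ 4 ≤ (H.map (MulAut.conj t).toMonoidHom).relIndex E) ∨
      8 ≤ (H.map (MulAut.conj t).toMonoidHom).relIndex E) : P ≤ K := by
  classical
  have := Fintype.ofFinite (G ⧸ H)
  let κ : G → ℤˣ := fun g => if g ∈ K then 1 else -1
  have hκ1 : ∀ g, κ g = 1 ↔ g ∈ K := fun g => by
    by_cases h : g ∈ K <;> simp [κ, h]
  have hκ : ∀ a ∈ H, ∀ b ∈ H, κ (a * b) = κ a * κ b := by
    intro a ha b hb
    have := Subgroup.mul_mem_iff_of_index_two (H := K.subgroupOf H) hKi (a := ⟨a, ha⟩) (b := ⟨b, hb⟩)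
    simp only [Subgroup.mem_subgroupOf, Subgroup.coe_mul] at this
    by_cases h1 : a ∈ K <;> by_cases h2 : b ∈ K <;> simp_all [κ]
  let c : G → G ⧸ H → ℤˣ := fun g q => κ ((g • q).out⁻¹ * g * q.out)
  have hcH : ∀ (g : G) (q : G ⧸ H), (g • q).out⁻¹ * g * q.out ∈ H := fun g q => by
    rw [mul_assoc, ← QuotientGroup.eq, QuotientGroup.out_eq', ← smul_eq_mul, Quotient.coe_smul_out]
  have hc : ∀ g h y, c (g * h) y = c g (h • y) * c h y := fun g h y => by
    simp only [c]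
    rw [← hκ _ (hcH _ _) _ (hcH _ _), mul_smul]
    congr 1; group
  have T : Tr c E P := ⟨hc, hP, hEP, hPN⟩
  let V : G →* ℤˣ := MonoidHom.mk' (fun g => ∏ q, c g q) fun g h => by
    rw [h9_cocycle_finset hc, Finset.smul_finset_univ]
  have hV : ∀ g, ∏ q, c g q = 1 := fun g =>
    pResidual_le_ker (p := 2) (fun u => ⟨1, by simp⟩) V (hres ▸ Subgroup.mem_top g)
  have hstab : ∀ (g : G) (q : G ⧸ H), g • q = q ↔ q.out⁻¹ * g * q.out ∈ H := fun g q => by
    rw [mul_assoc, ← QuotientGroup.eq, QuotientGroup.out_eq', ← smul_eq_mul, Quotient.coe_smul_out, eq_comm]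
  have hone : ∀ g ∈ H, g • ((1 : G) : G ⧸ H) = (1 : G) := fun g hg => by
    rw [Quotient.smul_coe, QuotientGroup.eq]; simpa using hg
  intro g hg
  have h1 := T.prod_eq_one (Finset.univ.erase ((1 : G) : G ⧸ H)) (fun p hp q hq => by
    rw [Finset.mem_erase] at hq ⊢
    refine ⟨fun h => hq.1 ?_, Finset.mem_univ _⟩
    rw [← hone p (hPH hp)] at h
    exact smul_left_cancel p h) (fun q hq => by
    have ht : q.out ∉ H := fun h => (Finset.mem_erase.1 hq).1 (by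
      rw [← QuotientGroup.out_eq' q, QuotientGroup.eq]; simpa using h)
    have hidx : (H.map (MulAut.conj q.out).toMonoidHom).relIndex E = (P ⊓ stabilizer G q).relIndex E := by
      rw [← Subgroup.inf_relIndex_right, ← Subgroup.inf_relIndex_right (P ⊓ _)]
      congr 1
      ext e
      simp only [Subgroup.mem_inf, h9_mem_conj_iff, mem_stabilizer_iff, hstab]
      exact ⟨fun h => ⟨⟨hEP h.2, h.1⟩, h.2⟩, fun h => ⟨h.1.2, h.2⟩⟩
    have hchi : ∀ m, m • q = q → q.out⁻¹ * m * q.out ∈ K → h9_chi c (P ⊓ stabilizer G q) q m = 1 := by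
      intro m hm hmK
      have : h9_orb (P ⊓ stabilizer G q) q = {q} := by
        ext v
        rw [h9_mem_orb, Finset.mem_singleton]
        exact ⟨fun ⟨m, hm, e⟩ => e.symm.trans hm.2, fun e => ⟨1, Subgroup.one_mem _, by simp [e]⟩⟩
      rw [h9_chi, this, Finset.prod_singleton]
      simp only [c]
      rw [hm, hκ1]; exact hmK
    rcases hcase q.out ht with ⟨h1, h2⟩ | ⟨h1, h2⟩ | h2 <;> rw [hidx] at h2
    · exact T.level1 q h2 le_rfl le_sup_right fun m hm hmE =>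
        hchi m hm.2 (h1 m hmE ((hstab m q).1 hm.2))
    · exact T.level2 hE q h2 le_rfl le_sup_right fun m hm hmE =>
        hchi m hm.2 (h1 m hmE ((hstab m q).1 hm.2))
    · exact T.level3 hE q h2 le_rfl le_sup_right) g hg
  have h2 := hV g
  rw [← Finset.mul_prod_erase _ _ (Finset.mem_univ ((1 : G) : G ⧸ H)), h1, mul_one] at h2
  simp only [c] at h2
  have h3 : ((1 : G) : G ⧸ H).out ∈ H := by
    have := QuotientGroup.eq.1 (QuotientGroup.out_eq' ((1 : G) : G ⧸ H))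
    simpa using this
  rw [hone g (hPH hg), hκ _ (H.mul_mem (H.inv_mem h3) (hPH hg)) _ h3, hκ _ (H.inv_mem h3) _ (hPH hg),
    mul_right_comm, ← hκ _ (H.inv_mem h3) _ h3, inv_mul_cancel, (hκ1 1).2 K.one_mem, one_mul, hκ1] at h2
  exact h2

end Cfsg.Lib.RuSyl
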