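import Mathlib
import Cfsg.Agent.Lib.RuSyl.Tr

set_option autoImplicit false

namespace Cfsg.Lib.RuSyl

open Subgroup
open scoped commutatorElement

universe u

variable {G : Type u} [Group G] [Finite G] {T W Z : Subgroup G}

theorem le_sup_of_npc {A P : Subgroup G} (hP : IsSylowIn 2 P A) (h : HasNormalPComplement 2 A) :
    A ≤ P ⊔ (pPrimeCore 2 A).map A.subtype := by
  refine le_of_forall_isSylowIn fun q hq _ => ?_
  by_cases e : q = 2
  · exact ⟨P, e ▸ hP, le_sup_left⟩
  · have := Fact.mk hq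
    obtain ⟨Q, hQ⟩ := exists_isSylowIn q A
    refine ⟨Q, hQ, (h.le_pPrimeCoreOf hQ.le ?_).trans le_sup_right⟩
    rw [hQ.card_eq]
    exact ((Nat.coprime_primes hq Nat.prime_two).2 e).pow_left _

theorem RS.false_of_index_two (h : RS T W Z) (hT : IsSylowIn 2 T ⊤) (h2 : ∀ H : Subgroup G, H.index ≠ 2)
    {K : Subgroup G} (hK : K.relIndex (normalizer (W : Set G)) = 2) (hWK : W ≤ K) : False := by
  set N := normalizer (W : Set G)
  have hTN : IsSylowIn 2 T N := hT.mono h.normW le_top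
  refine h9_not_sylow_le hTN hK (ws_transfer (pResidual_two_eq_top_iff.2 h2) hK h.toWS h.pT h.WT h.normW h.normW
    fun t ht => ?_)
  set U := W ⊓ N.map (MulAut.conj t).toMonoidHom with hU
  have hr : (N.map (MulAut.conj t).toMonoidHom).relIndex W = U.relIndex W := (inf_relIndex_left _ _).symm
  have hKn : ∀ n ∈ N, ∀ x ∈ N, n * x * n⁻¹ ∈ K → x ∈ K := fun n hn x hx e => by
    have := ((K.subgroupOf N).normal_of_index_eq_two hK).conj_mem' ⟨_, mul_mem (mul_mem hn hx) (inv_mem hn)⟩ e ⟨n, hn⟩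
    simpa [mem_subgroupOf, mul_assoc] using this
  obtain ⟨n, hn, hnT⟩ := hTN.exists_conj_le (U := U.map (MulAut.conj t⁻¹).toMonoidHom)
    ((h.pg.to_le inf_le_left).map _) (by
      rintro _ ⟨u, hu, rfl⟩
      simpa using (h9_mem_conj_iff _ _ _).1 hu.2)
  rw [map_map] at hnT
  have hinj : Function.Injective ((MulAut.conj n).toMonoidHom.comp (MulAut.conj t⁻¹).toMonoidHom) :=
    (MulAut.conj n).injective.comp (MulAut.conj t⁻¹).injective
  have key : U.relIndex W ≤ 2 → ∀ u ∈ U, n * (t⁻¹ * u * t) * n⁻¹ ∈ W := fun e u hu => by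
    have := h.le_W (h.toWS.map _ hinj) hnT (map_mono inf_le_left)
      (by rwa [relIndex_map_map_of_injective _ _ hinj]) ⟨u, hu, rfl⟩
    simpa using this
  obtain ⟨k, hk⟩ : ∃ k, U.relIndex W = 2 ^ k := h.pg.index _
  rw [hr, hk]
  rw [hk] at key
  rcases k with _ | _ | _ | k
  · exfalso
    have e1 : W ≤ U := relIndex_eq_one.1 hk
    have e2 : n * t⁻¹ ∈ N := h9_mem_normalizer_of_conj_mem fun w hw => by
      simpa [mul_assoc] using key (by omega) w (e1 hw)
    exact ht (inv_mem_iff.1 ((mul_mem_cancel_left hn).1 e2))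
  · exact Or.inl ⟨fun e he h1 => hKn n hn _ h1 (hWK (key (by omega) e ⟨he, (h9_mem_conj_iff _ _ _).2 h1⟩)), by omega⟩
  · refine Or.inr (Or.inl ⟨fun e he _ => (h9_mem_conj_iff _ _ _).1
      (h.d (U ⊓ K.map (MulAut.conj t).toMonoidHom) (inf_le_left.trans inf_le_left) ?_ he).2, by omega⟩)
    rw [← relIndex_mul_relIndex _ U W inf_le_left inf_le_left, hk, inf_relIndex_left]
    have e1 := relIndex_le_of_le_right (H := K.map (MulAut.conj t).toMonoidHom)
      (inf_le_right : U ≤ N.map (MulAut.conj t).toMonoidHom) FiniteIndex.index_ne_zero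
    rw [relIndex_map_map_of_injective _ _ (MulAut.conj t).injective, hK, ← hU] at e1
    omega
  · exact Or.inr (Or.inr (Nat.pow_le_pow_right (n := 2) (i := 3) (by omega) (by omega)))

theorem RS.exists_surj (h : RS T W Z) (hT : IsSylowIn 2 T ⊤) (h2 : ∀ H : Subgroup G, H.index ≠ 2) :
    ∃ ψ : normalizer (W : Set G) →* GL (Fin 3) (ZMod 2), Function.Surjective ψ ∧
      ψ.ker = (centralizer (Z : Set G)).subgroupOf _ := by
  set N := normalizer (W : Set G)
  obtain ⟨e⟩ := nonempty_mulAut_equiv (V := Z) (fun v => Subtype.ext (h.zsq v v.2)) (n := 3) h.cardZ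
  let ψ : N →* GL (Fin 3) (ZMod 2) := e.toMonoidHom.comp (Z.normalizerMonoidHom.comp (inclusion h.normZ))
  have hk : ψ.ker = (centralizer (Z : Set G)).subgroupOf N := by
    ext n
    rw [MonoidHom.mem_ker, MonoidHom.comp_apply, MulEquiv.coe_toMonoidHom, MulEquiv.map_eq_one_iff,
      MonoidHom.comp_apply, ← MonoidHom.mem_ker, normalizerMonoidHom_ker]
    rfl
  refine ⟨ψ, ?_, hk⟩
  have hWc : W ≤ centralizer (Z : Set G) := fun w hw z hz => h.comm w hw z hz
  have hB : ∀ B : Subgroup ψ.range, B.index ≠ 2 := fun B hB =>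
    h.false_of_index_two hT h2 (K := (B.comap ψ.rangeRestrict).map N.subtype) (by
      rw [relIndex, subgroupOf, comap_map_eq_self_of_injective N.subtype_injective,
        index_comap_of_surjective _ ψ.rangeRestrict_surjective, hB]) fun w hw =>
      ⟨⟨w, le_normalizer hw⟩, by
        have : ψ.rangeRestrict ⟨w, le_normalizer hw⟩ = 1 :=
          Subtype.ext (show (⟨w, le_normalizer hw⟩ : N) ∈ ψ.ker from hk ▸ hWc hw)
        rw [SetLike.mem_coe, mem_comap, this]; exact B.one_mem, rfl⟩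
  have hD : Nat.card ((T.subgroupOf N).map ψ) = 8 := by
    rw [← relIndex_ker, hk, relIndex_subgroupOf h.normW, ← inf_relIndex_right, ← h.idx]
    congr 1
    exact le_antisymm (fun t ht => h.memW t ht.2 ht.1) (le_inf hWc h.WT)
  have := simple_gl3
  rcases eq_top_or_normal card_gl3 (map_le_range ψ _) hD hB with e1 | e1
  · exact MonoidHom.range_eq_top.1 e1
  exfalso
  have hp : IsPGroup 2 ψ.range := by
    rintro ⟨_, n, rfl⟩
    obtain ⟨k, hk'⟩ := exists_pow_coprime_orderOf (p := 2) n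
    refine ⟨k, Subtype.ext ?_⟩
    rw [SubmonoidClass.coe_pow, ← map_pow]
    generalize n ^ 2 ^ k = x at hk'
    refine (show x ∈ ψ.ker from hk ▸ h.cent_Z ((orderOf_coe x).symm ▸ Nat.coprime_two_right.1 hk' : Odd (orderOf (x : G)))
      (h.normZ x.2) fun t ht => ?_)
    obtain ⟨s, hs, e2⟩ := h9_conj_mem_of_mem_normalizer' (e1 ⟨x, rfl⟩) ⟨⟨t, h.normW ht⟩, ht, rfl⟩
    refine ⟨s, hs, ?_⟩
    have : s⁻¹ * (x⁻¹ * ⟨t, h.normW ht⟩ * x) ∈ ψ.ker := by
      rw [MonoidHom.mem_ker, map_mul, map_inv, e2, map_mul, map_mul, map_inv, inv_mul_cancel]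
    rw [hk] at this
    exact this
  have hn : Nontrivial ψ.range := Finite.one_lt_card_iff_nontrivial.1 (by
    have := card_le_of_le (map_le_range ψ (T.subgroupOf N))
    omega)
  obtain ⟨M, hM, -⟩ := (eq_top_or_exists_le_coatom (⊥ : Subgroup ψ.range)).resolve_left bot_ne_top
  exact hB M (pg_index_of_isCoatom hp hM)

theorem RS.isSylowIn (h : RS T W Z) (hT : IsSylowIn 2 T ⊤) {A : Subgroup G} (hTA : T ≤ A)
    (hA : A ≤ normalizer (Z : Set G)) : IsSylowIn 2 W (A ⊓ centralizer (Z : Set G)) := by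
  have := (hT.mono hTA le_top).inf_of_le_normalizer (N := A ⊓ centralizer (Z : Set G)) inf_le_left
    ((le_inf le_normalizer (hA.trans (normalizer_le_normalizer_centralizer Z))).trans inf_normalizer_le_normalizer_inf)
  rwa [show T ⊓ (A ⊓ centralizer (Z : Set G)) = W from le_antisymm (fun t ht => h.memW t ht.1 ht.2.2)
    (le_inf h.WT (le_inf (h.WT.trans hTA) fun w hw z hz => h.comm w hw z hz))] at this

theorem RS.comm_mem' (h : RS T W Z) (hT : IsSylowIn 2 T ⊤) (h2 : ∀ H : Subgroup G, H.index ≠ 2) {x : G}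
    (hx : x ∈ normalizer (W : Set G)) (hZ : x ∈ centralizer (Z : Set G)) {w : G} (hw : w ∈ W) :
    x * w * x⁻¹ * w⁻¹ ∈ Z := by
  obtain ⟨ψ, hs, hk⟩ := h.exists_surj hT h2
  obtain ⟨V, _, _, φ, hV, h8, hu, hφ⟩ := h.exists_rep
  have := simple_gl3
  have h1 := map_ker_eq_bot hV h8 φ ψ hs (by rw [card_gl3]; norm_num) h.pT.comap_subtype hu (by
    have e1 : W.subgroupOf (normalizer (W : Set G)) ≤ φ.ker := fun w hw => (hφ w).2 fun _ => h.comm_mem hw
    have e2 := relIndex_dvd_of_le_left ψ.ker e1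
    have e3 := (h.isSylowIn hT h.normW h.normZ).not_dvd_relIndex
    rw [← relIndex_subgroupOf (inf_le_left : _ ≤ normalizer (W : Set G)), inf_subgroupOf_left, ← hk] at e3
    rw [← relIndex_ker, ← Nat.not_even_iff_odd, even_iff_two_dvd]
    exact fun e => e3 (e.trans e2))
  rw [Subgroup.map_eq_bot_iff, hk] at h1
  exact (hφ ⟨x, hx⟩).1 (h1 hZ) w hw

theorem RS.ker_eq (h : RS T W Z) (hT : IsSylowIn 2 T ⊤) (h2 : ∀ H : Subgroup G, H.index ≠ 2) :
    (centralizer (Z : Set G)).subgroupOf (normalizer (W : Set G)) =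
      W.subgroupOf (normalizer (W : Set G)) ⊔ oddCore (normalizer (W : Set G)) := by
  set N := normalizer (W : Set G)
  have hS := h.isSylowIn hT h.normW h.normZ
  refine le_antisymm ?_ (sup_le (fun w hw z hz => h.comm w hw z hz) fun x hx z hz => ?_)
  · have h1 := le_sup_of_npc hS (npc_of_cent hS fun x hx ho w hw =>
      (h.cent_W ho hx.2 (fun _ => h.comm_mem' hT h2 hx.1 hx.2) hw).symm)
    have h3 := h1.trans (sup_le_sup_left (pPrimeCoreOf_le_pPrimeCoreOf_of_le_normalizer (K := N) inf_le_left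
      ((le_inf le_normalizer (h.normZ.trans (normalizer_le_normalizer_centralizer Z))).trans
        inf_normalizer_le_normalizer_inf)) W)
    intro x hx
    have h4 := h3 ⟨x.2, hx⟩
    rw [← map_subgroupOf_eq_of_le (le_normalizer : W ≤ N), ← Subgroup.map_sup] at h4
    exact (mem_map_iff_mem N.subtype_injective).1 h4
  · have h1 : W.subgroupOf N ≤ pCore 2 N := le_pCore inferInstance h.pg.comap_subtype
    have h3 := commutator_eq_bot_iff_le_centralizer.1 (commutator_pCore_pPrimeCore (p := 2) (G := N))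
    exact (congrArg Subtype.val (h3 (h1 (x := ⟨z, le_normalizer (h.ZW hz)⟩) (h.ZW hz)) x hx)).symm

theorem RS.npc (h : RS T W Z) (hT : IsSylowIn 2 T ⊤) (h2 : ∀ H : Subgroup G, H.index ≠ 2) :
    HasNormalPComplement 2 (centralizer (Z : Set G)) := by
  set C := centralizer (Z : Set G)
  have hS := h.isSylowIn hT (h.normW.trans h.normZ) le_rfl
  rw [inf_eq_right.2 (centralizer_le_normalizer _)] at hS
  have hZn : (Z.subgroupOf C).Normal :=
    (normal_subgroupOf_iff_le_normalizer (h.ZW.trans hS.le)).2 (centralizer_le_normalizer _)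
  let π := QuotientGroup.mk' (Z.subgroupOf C)
  have hS' : IsSylowIn 2 ((W.subgroupOf C).map π) ⊤ := by
    obtain ⟨S, hS1⟩ := hS.exists_sylow'
    have := (IsSylowIn.of_sylow_top S).map π
    rwa [hS1, map_top_of_surjective _ (QuotientGroup.mk'_surjective _)] at this
  obtain ⟨S, hS1⟩ := hS'.exists_sylow_top
  have h1 : HasNormalPComplement 2 (C ⧸ Z.subgroupOf C) := by
    refine hasNormalPComplement_of_normalizer_le_centralizer S ?_
    rw [hS1]
    intro g hg
    obtain ⟨g, rfl⟩ := QuotientGroup.mk'_surjective _ g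
    have hgN : (g : G) ∈ normalizer (W : Set G) := h9_mem_normalizer_of_conj_mem fun w hw => by
      obtain ⟨u, hu, e⟩ := h9_conj_mem_of_mem_normalizer hg ⟨⟨w, hS.le hw⟩, hw, rfl⟩
      have : u⁻¹ * (g * ⟨w, hS.le hw⟩ * g⁻¹) ∈ Z.subgroupOf C := QuotientGroup.eq.1 e
      exact (W.mul_mem_cancel_left (W.inv_mem hu)).1 (h.ZW this)
    rintro _ ⟨w, hw, rfl⟩
    rw [eq_comm, ← commutatorElement_eq_one_iff_mul_comm, ← map_commutatorElement]
    exact (QuotientGroup.eq_one_iff _).2 (h.comm_mem' hT h2 hgN g.2 hw)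
  have h3 := hasNormalPComplement_of_central_ker (p := 2) π (A := ⊤) (by
    rw [inf_top_eq, QuotientGroup.ker_mk']; exact (h.pg.to_le h.ZW).comap_subtype) (by
    rw [inf_top_eq, QuotientGroup.ker_mk']
    exact fun g _ z hz => Subtype.ext (g.2 z hz)) (h1.to_subgroup _)
  exact h3.of_surjective (⊤ : Subgroup C).subtype fun x => ⟨⟨x, mem_top x⟩, rfl⟩

theorem RS.sup_eq (h : RS T W Z) (hT : IsSylowIn 2 T ⊤) (h2 : ∀ H : Subgroup G, H.index ≠ 2) :
    (normalizer (W : Set G)).subgroupOf (normalizer (Z : Set G)) ⊔ oddCore (normalizer (Z : Set G)) = ⊤ := by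
  set M := normalizer (Z : Set G)
  have hS := h.isSylowIn hT (h.normW.trans h.normZ) le_rfl
  rw [inf_eq_right.2 (centralizer_le_normalizer _)] at hS
  have h1 := hS.le_sup_normalizer (centralizer_le_normalizer _) (normalizer_le_normalizer_centralizer Z)
  have h3 := (le_sup_of_npc hS (h.npc hT h2)).trans (sup_le_sup le_normalizer
    (pPrimeCoreOf_le_pPrimeCoreOf_of_le_normalizer (K := M) (centralizer_le_normalizer _)
      (normalizer_le_normalizer_centralizer Z)))
  have h4 := h1.trans (sup_le h3 (inf_le_right.trans le_sup_left))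
  rw [eq_top_iff]
  intro x _
  have h5 := h4 x.2
  rw [← map_subgroupOf_eq_of_le (h.normZ : _ ≤ M), ← Subgroup.map_sup] at h5
  exact (mem_map_iff_mem M.subtype_injective).1 h5

end Cfsg.Lib.RuSyl
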